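import Mathlib

/-!
# Exponentials in a ring where triple products of a subgroup vanish
-/

set_option autoImplicit false

namespace Cfsg.Agent.Lib.PLocal.QO

variable {M : Type*} [Ring M] {p : ℕ} [Fact p.Prime] [Algebra (ZMod p) M]

/-- Truncated exponential, `r` standing for `1/2`. -/
def Ex (r : ZMod p) (z : M) : M := 1 + z + r • (z * z)

/-- Triple products vanish and `L` is closed under brackets. -/
structure Trip (L : AddSubgroup M) : Prop where
  trip : ∀ a ∈ L, ∀ b ∈ L, ∀ c ∈ L, a * b * c = 0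
  lie : ∀ a ∈ L, ∀ b ∈ L, a * b - b * a ∈ L

theorem smul_mem_add (L : AddSubgroup M) (c : ZMod p) {x : M} (hx : x ∈ L) : c • x ∈ L := by
  have h1 : c • x = c.val • x := by
    rw [← Nat.cast_smul_eq_nsmul (ZMod p), ZMod.natCast_zmod_val]
  rw [h1]
  exact L.nsmul_mem hx _

theorem Ex_zero (r : ZMod p) : Ex r (0 : M) = 1 := by simp [Ex]

theorem Ex_of_sq (r : ZMod p) {z : M} (h : z * z = 0) : Ex r z = 1 + z := by simp [Ex, h]

theorem mul_aux (a b τ σ : M) (s t : ZMod p) :
    (a + s • τ) * (b + t • σ) = a * b + t • (a * σ) + s • (τ * b) + s • t • (τ * σ) := by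
  rw [add_mul, mul_add, mul_add, smul_mul_assoc, mul_smul_comm, smul_mul_assoc, mul_smul_comm]
  abel

section

variable {L : AddSubgroup M} (hL : Trip L) {r : ZMod p} (hr : r + r = 1)

include hL in
theorem Trip.trip' {a b c : M} (ha : a ∈ L) (hb : b ∈ L) (hc : c ∈ L) : a * (b * c) = 0 := by
  rw [← mul_assoc]
  exact hL.trip a ha b hb c hc

include hL in
theorem Trip.mul_br {a b c : M} (ha : a ∈ L) (hb : b ∈ L) (hc : c ∈ L) : a * (b * c - c * b) = 0 := by
  rw [mul_sub, hL.trip' ha hb hc, hL.trip' ha hc hb, sub_zero]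

include hL in
theorem Trip.br_mul {a b c : M} (ha : a ∈ L) (hb : b ∈ L) (hc : c ∈ L) : (b * c - c * b) * a = 0 := by
  rw [sub_mul, hL.trip b hb c hc a ha, hL.trip c hc b hb a ha, sub_zero]

include hL in
theorem Trip.br_sq {a b : M} (ha : a ∈ L) (hb : b ∈ L) : (a * b - b * a) * (a * b - b * a) = 0 :=
  hL.mul_br (hL.lie a ha b hb) ha hb

include hL hr in
theorem Ex_mul {z w : M} (hz : z ∈ L) (hw : w ∈ L) :
    Ex r z * Ex r w = Ex r (z + w + r • (z * w - w * z)) := by
  have hb : z * w - w * z ∈ L := hL.lie z hz w hw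
  set τ := z * w - w * z with hτ
  have hs : z + w ∈ L := L.add_mem hz hw
  have h1 : (z + w) * τ = 0 := hL.mul_br hs hz hw
  have h2 : τ * (z + w) = 0 := hL.br_mul hs hz hw
  have h3 : τ * τ = 0 := hL.br_sq hz hw
  have hsq : (z + w + r • τ) * (z + w + r • τ) = z * z + z * w + w * z + w * w := by
    rw [mul_aux, h1, h2, h3]
    simp only [smul_zero, add_zero, add_mul, mul_add]
    abel
  have hzw : z * (w * w) = 0 := hL.trip' hz hw hw
  have hzzw : z * z * w = 0 := hL.trip z hz z hz w hw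
  have hzzww : z * z * (w * w) = 0 := by rw [← mul_assoc, hzzw, zero_mul]
  have hlhs : Ex r z * Ex r w = 1 + z + w + z * w + r • (z * z) + r • (w * w) := by
    unfold Ex
    rw [mul_aux, hzzww, add_mul 1 z (w * w), mul_add (z * z) 1 w, hzw, hzzw]
    simp only [one_mul, mul_one, add_zero, smul_zero, add_mul, mul_add]
    abel
  have hA : r • (z * w) + r • (z * w) = z * w := by rw [← add_smul, hr, one_smul]
  rw [hlhs, Ex, hsq, hτ]
  simp only [smul_add, smul_sub]
  generalize r • (z * w) = a at hA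
  rw [← hA]
  abel

include hL hr in
theorem Ex_mul_neg {z : M} (hz : z ∈ L) : Ex r z * Ex r (-z) = 1 := by
  rw [Ex_mul hL hr hz (L.neg_mem hz)]
  have : z + -z + r • (z * -z - -z * z) = 0 := by simp
  rw [this, Ex_zero]

include hL hr in
theorem Ex_neg_mul {z : M} (hz : z ∈ L) : Ex r (-z) * Ex r z = 1 := by
  have := Ex_mul_neg (r := r) hL hr (L.neg_mem hz)
  rwa [neg_neg] at this

include hL hr in
/-- The group commutator is `1 + [z, w]`. -/
theorem Ex_comm {z w : M} (hz : z ∈ L) (hw : w ∈ L) :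
    Ex r (-z) * Ex r (-w) * (Ex r z * Ex r w) = 1 + (z * w - w * z) := by
  have hb : z * w - w * z ∈ L := hL.lie z hz w hw
  have hc : r • (z * w - w * z) ∈ L := smul_mem_add L r hb
  have hs : z + w ∈ L := L.add_mem hz hw
  rw [Ex_mul hL hr hz hw, Ex_mul hL hr (L.neg_mem hz) (L.neg_mem hw)]
  have e1 : -z * -w - -w * -z = z * w - w * z := by simp
  rw [e1]
  have h1 : -z + -w + r • (z * w - w * z) ∈ L :=
    L.add_mem (L.add_mem (L.neg_mem hz) (L.neg_mem hw)) hc
  have h2 : z + w + r • (z * w - w * z) ∈ L := L.add_mem hs hc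
  rw [Ex_mul hL hr h1 h2]
  set τ := z * w - w * z with hτ
  have h3 : (z + w) * τ = 0 := hL.mul_br hs hz hw
  have h4 : τ * (z + w) = 0 := hL.br_mul hs hz hw
  have h5 : τ * τ = 0 := hL.br_sq hz hw
  have e2 : (-z + -w + r • τ) * (z + w + r • τ) - (z + w + r • τ) * (-z + -w + r • τ) = 0 := by
    have e3 : -z + -w + r • τ = -(z + w) + r • τ := by abel
    have h6 : -(z + w) * τ = 0 := by rw [neg_mul, h3, neg_zero]
    have h7 : τ * -(z + w) = 0 := by rw [mul_neg, h4, neg_zero]
    rw [e3, mul_aux, mul_aux, h6, h7, h3, h4, h5, neg_mul, mul_neg]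
    simp
  rw [e2, smul_zero, add_zero]
  have e4 : -z + -w + r • τ + (z + w + r • τ) = τ := by
    have : r • τ + r • τ = τ := by rw [← add_smul, hr, one_smul]
    calc -z + -w + r • τ + (z + w + r • τ) = r • τ + r • τ := by abel
      _ = τ := this
  rw [e4, Ex_of_sq r h5]

include hL hr in
/-- Addition from products and a correction term. -/
theorem Ex_add {z w : M} (hz : z ∈ L) (hw : w ∈ L) :
    Ex r (z + w) = Ex r z * Ex r w * (1 + (-r) • (z * w - w * z)) := by
  have hb : z * w - w * z ∈ L := hL.lie z hz w hw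
  have hc : r • (z * w - w * z) ∈ L := smul_mem_add L r hb
  have hs : z + w ∈ L := L.add_mem hz hw
  rw [Ex_mul hL hr hz hw]
  set τ := z * w - w * z with hτ
  have h3 : (z + w) * τ = 0 := hL.mul_br hs hz hw
  have h4 : τ * (z + w) = 0 := hL.br_mul hs hz hw
  have h5 : τ * τ = 0 := hL.br_sq hz hw
  have h6 : ((-r) • τ) * ((-r) • τ) = 0 := by
    simp only [smul_mul_assoc, mul_smul_comm, h5, smul_zero]
  have h7 : (-r) • τ ∈ L := smul_mem_add L (-r) hb
  have h2 : z + w + r • τ ∈ L := L.add_mem hs hc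
  rw [← Ex_of_sq r h6, Ex_mul hL hr h2 h7]
  have e2 : (z + w + r • τ) * (-r) • τ - (-r) • τ * (z + w + r • τ) = 0 := by
    have e3 : (z + w + r • τ) * τ = 0 := by
      rw [add_mul, smul_mul_assoc, h3, h5]
      simp
    have e4 : τ * (z + w + r • τ) = 0 := by
      rw [mul_add, mul_smul_comm, h4, h5]
      simp
    rw [mul_smul_comm, smul_mul_assoc, e3, e4]
    simp
  rw [e2, smul_zero, add_zero]
  congr 1
  rw [neg_smul]
  abel

end

end Cfsg.Agent.Lib.PLocal.QO
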