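import Cfsg.Agent.Lib.PLocal.QO.Limit

/-!
# The two curves attached to a square-zero element

`Φ₂ y f = (X + y) f (X - y)` and `Φ₁ y f = (X + y) f`.
-/

set_option autoImplicit false

open Polynomial

namespace Cfsg.Agent.Lib.PLocal.QO

variable {M : Type*} [Ring M]

/-- `D z = y z - z y`. -/
def dd (y z : M) : M := y * z - z * y

/-- `E z = - y z y`. -/
def ee (y z : M) : M := -(y * z * y)

theorem dd_zero (y : M) : dd y 0 = 0 := by simp [dd]

theorem ee_zero (y : M) : ee y 0 = 0 := by simp [ee]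

theorem dd_add (y a b : M) : dd y (a + b) = dd y a + dd y b := by
  simp only [dd, mul_add, add_mul]
  abel

theorem ee_add (y a b : M) : ee y (a + b) = ee y a + ee y b := by
  simp only [ee, mul_add, add_mul, neg_add]

/-- `f ↦ (X + y) f (X - y)`. -/
noncomputable def phi2 (y : M) : M[X] →+ M[X] where
  toFun f := (X + C y) * f * (X - C y)
  map_zero' := by simp
  map_add' a b := by rw [mul_add, add_mul]

/-- `f ↦ (X + y) f`. -/
noncomputable def phi1 (y : M) : M[X] →+ M[X] where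
  toFun f := (X + C y) * f
  map_zero' := by simp
  map_add' a b := by rw [mul_add]

theorem phi2_apply (y : M) (f : M[X]) : phi2 y f = (X + C y) * f * (X - C y) := rfl

theorem phi1_apply (y : M) (f : M[X]) : phi1 y f = (X + C y) * f := rfl

theorem C_mul_C_self (y : M) (hy : y * y = 0) : (C y : M[X]) * C y = 0 := by
  rw [← C_mul, hy, C_0]

theorem mul_sq (y : M) (hy : y * y = 0) : (X - C y) * (X + C y) = (X : M[X]) ^ 2 := by
  rw [sub_mul, mul_add, mul_add, C_mul_C_self y hy, X_mul_C, pow_two]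
  abel

theorem mul_sq' (y : M) (hy : y * y = 0) : (X + C y) * (X - C y) = (X : M[X]) ^ 2 := by
  rw [add_mul, mul_sub, mul_sub, C_mul_C_self y hy, X_mul_C, pow_two]
  abel

theorem phi2_eq (y : M) (f : M[X]) :
    phi2 y f = X * (X * f) + X * (C y * f - f * C y) - C y * f * C y := by
  have h1 : X * f * X = X * (X * f) := by rw [mul_assoc, ← X_mul]
  have h2 : C y * f * X = X * (C y * f) := by rw [← X_mul]
  rw [phi2_apply, mul_sub, add_mul, add_mul, mul_sub, h1, h2, add_mul, mul_assoc X f (C y)]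
  abel

theorem coeff_phi2 (y : M) (f : M[X]) (k : ℕ) :
    (phi2 y f).coeff k = (X * (X * f)).coeff k + dd y ((X * f).coeff k) + ee y (f.coeff k) := by
  rw [phi2_eq, coeff_sub, coeff_add]
  have h2 : (C y * f * C y).coeff k = y * f.coeff k * y := by
    rw [coeff_mul_C, coeff_C_mul]
  have h1 : (X * (C y * f - f * C y)).coeff k = dd y ((X * f).coeff k) := by
    cases k with
    | zero => simp [dd]
    | succ k => simp [dd, coeff_X_mul, coeff_C_mul, coeff_mul_C]
  rw [h1, h2, ee, sub_eq_add_neg]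

theorem coeff_X_mul_mem {T : AddSubgroup M} {f : M[X]} (hf : f ∈ polyIn T) (k : ℕ) :
    (X * f).coeff k ∈ T := by
  cases k with
  | zero => simp [T.zero_mem]
  | succ k => rw [coeff_X_mul]; exact hf k

theorem X_mul_mem_polyIn {T : AddSubgroup M} {f : M[X]} (hf : f ∈ polyIn T) : X * f ∈ polyIn T :=
  coeff_X_mul_mem hf

theorem eq_zero_of_X_pow_mul {g : M[X]} {n : ℕ} (h : X ^ n * g = 0) : g = 0 := by
  ext k
  have h1 := congrArg (fun f : M[X] => f.coeff (k + n)) h
  simpa [coeff_X_pow_mul] using h1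

theorem curve2 (y : M) (hy : y * y = 0) : Curve (phi2 y) 2 where
  shift f := by
    rw [phi2_apply, phi2_apply, ← mul_assoc, (commute_X (X + C y)).eq.symm, mul_assoc, mul_assoc,
      mul_assoc]
  inj := by
    intro f g h
    have h1 : ∀ e : M[X], (X - C y) * phi2 y e * (X + C y) = X ^ 4 * e := by
      intro e
      rw [phi2_apply]
      calc (X - C y) * ((X + C y) * e * (X - C y)) * (X + C y)
          = ((X - C y) * (X + C y)) * e * ((X - C y) * (X + C y)) := by noncomm_ring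
        _ = X ^ 2 * e * X ^ 2 := by rw [mul_sq y hy]
        _ = X ^ 4 * e := by
            rw [mul_assoc, ← X_pow_mul, ← mul_assoc, ← pow_add]
    have h2 : X ^ 4 * f = X ^ 4 * g := by
      rw [← h1, ← h1, h]
    have h3 : X ^ 4 * (f - g) = 0 := by rw [mul_sub, h2, sub_self]
    exact sub_eq_zero.mp (eq_zero_of_X_pow_mul h3)
  deg := by
    intro m f hf k hk
    obtain ⟨j, rfl⟩ : ∃ j, k = j + 2 := ⟨k - 2, by omega⟩
    have hj : m ≤ j := by omega
    rw [coeff_phi2, coeff_X_mul, coeff_X_mul, coeff_X_mul, hf j hj, hf (j + 1) (by omega),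
      hf (j + 2) (by omega), dd_zero, ee_zero]
    simp

theorem coeff_phi1 (y : M) (f : M[X]) (k : ℕ) :
    (phi1 y f).coeff k = (X * f).coeff k + y * f.coeff k := by
  rw [phi1_apply, add_mul, coeff_add, coeff_C_mul]

theorem curve1 (y : M) (hy : y * y = 0) : Curve (phi1 y) 1 where
  shift f := by
    rw [phi1_apply, phi1_apply, ← mul_assoc, (commute_X (X + C y)).eq.symm, mul_assoc]
  inj := by
    intro f g h
    have h1 : ∀ e : M[X], (X - C y) * phi1 y e = X ^ 2 * e := by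
      intro e
      rw [phi1_apply, ← mul_assoc, mul_sq y hy]
    have h2 : X ^ 2 * f = X ^ 2 * g := by
      rw [← h1, ← h1, h]
    have h3 : X ^ 2 * (f - g) = 0 := by rw [mul_sub, h2, sub_self]
    exact sub_eq_zero.mp (eq_zero_of_X_pow_mul h3)
  deg := by
    intro m f hf k hk
    obtain ⟨j, rfl⟩ : ∃ j, k = j + 1 := ⟨k - 1, by omega⟩
    rw [coeff_phi1, coeff_X_mul, hf j (by omega), hf (j + 1) (by omega)]
    simp

theorem mul_eq_zero_of_polyIn {T₁ T₂ : AddSubgroup M} (h : ∀ x ∈ T₁, ∀ x' ∈ T₂, x * x' = 0)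
    {f f' : M[X]} (hf : f ∈ polyIn T₁) (hf' : f' ∈ polyIn T₂) : f * f' = 0 := by
  ext k
  rw [coeff_mul]
  simp only [coeff_zero]
  exact Finset.sum_eq_zero fun ij _ => h _ (hf _) _ (hf' _)

/-- Products on the limit vanish. -/
theorem lim2_mul_lim2 {y : M} (hy : y * y = 0) {T₁ T₂ : AddSubgroup M}
    (h : ∀ x ∈ T₁, ∀ x' ∈ T₂, x * x' = 0) {z z' : M}
    (hz : z ∈ lim (curve2 y hy) T₁) (hz' : z' ∈ lim (curve2 y hy) T₂) : z * z' = 0 := by
  obtain ⟨g, ⟨n, f, hf, hg⟩, rfl⟩ := hz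
  obtain ⟨g', ⟨n', f', hf', hg'⟩, rfl⟩ := hz'
  have h0 : f * f' = 0 := mul_eq_zero_of_polyIn h hf hf'
  have h1 : X ^ (n + n') * (g * g') = 0 := by
    have : X ^ (n + n') * (g * g') = (X ^ n * g) * (X ^ n' * g') := by
      rw [pow_add, mul_assoc (X ^ n) g, ← mul_assoc g, ← X_pow_mul (p := g)]
      noncomm_ring
    rw [this, hg, hg', phi2_apply, phi2_apply]
    calc (X + C y) * f * (X - C y) * ((X + C y) * f' * (X - C y))
        = (X + C y) * f * ((X - C y) * (X + C y)) * f' * (X - C y) := by noncomm_ring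
      _ = (X + C y) * f * X ^ 2 * f' * (X - C y) := by rw [mul_sq y hy]
      _ = (X + C y) * X ^ 2 * (f * f') * (X - C y) := by
          rw [mul_assoc (X + C y) f, ← X_pow_mul]
          noncomm_ring
      _ = 0 := by rw [h0]; simp
  have h2 := eq_zero_of_X_pow_mul h1
  show g.coeff 0 * g'.coeff 0 = 0
  rw [← mul_coeff_zero, h2, coeff_zero]

/-- Products of the two limits vanish. -/
theorem lim2_mul_lim1 {y : M} (hy : y * y = 0) {T₁ T₂ : AddSubgroup M}
    (h : ∀ x ∈ T₁, ∀ x' ∈ T₂, x * x' = 0) {z z' : M}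
    (hz : z ∈ lim (curve2 y hy) T₁) (hz' : z' ∈ lim (curve1 y hy) T₂) : z * z' = 0 := by
  obtain ⟨g, ⟨n, f, hf, hg⟩, rfl⟩ := hz
  obtain ⟨g', ⟨n', f', hf', hg'⟩, rfl⟩ := hz'
  have h0 : f * f' = 0 := mul_eq_zero_of_polyIn h hf hf'
  have h1 : X ^ (n + n') * (g * g') = 0 := by
    have : X ^ (n + n') * (g * g') = (X ^ n * g) * (X ^ n' * g') := by
      rw [pow_add, mul_assoc (X ^ n) g, ← mul_assoc g, ← X_pow_mul (p := g)]
      noncomm_ring
    rw [this, hg, hg', phi2_apply, phi1_apply]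
    calc (X + C y) * f * (X - C y) * ((X + C y) * f')
        = (X + C y) * f * ((X - C y) * (X + C y)) * f' := by noncomm_ring
      _ = (X + C y) * f * X ^ 2 * f' := by rw [mul_sq y hy]
      _ = (X + C y) * X ^ 2 * (f * f') := by
          rw [mul_assoc (X + C y) f, ← X_pow_mul]
          noncomm_ring
      _ = 0 := by rw [h0]; simp
  have h2 := eq_zero_of_X_pow_mul h1
  show g.coeff 0 * g'.coeff 0 = 0
  rw [← mul_coeff_zero, h2, coeff_zero]

/-- The limit stays in any subgroup stable under the coefficient maps. -/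
theorem lim2_le {y : M} (hy : y * y = 0) {T F : AddSubgroup M} (hT : T ≤ F)
    (hD : ∀ x ∈ T, dd y x ∈ F) (hE : ∀ x ∈ T, ee y x ∈ F) : lim (curve2 y hy) T ≤ F := by
  rintro _ ⟨g, ⟨n, f, hf, hg⟩, rfl⟩
  have h1 : g.coeff 0 = (phi2 y f).coeff n := by
    rw [← hg]
    simpa using (coeff_X_pow_mul g n 0).symm
  show g.coeff 0 ∈ F
  rw [h1, coeff_phi2]
  exact F.add_mem (F.add_mem (hT (coeff_X_mul_mem (X_mul_mem_polyIn hf) n))
    (hD _ (coeff_X_mul_mem hf n))) (hE _ (hf n))

theorem lim1_le {y : M} (hy : y * y = 0) {T F : AddSubgroup M} (hT : T ≤ F)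
    (hY : ∀ x ∈ T, y * x ∈ F) : lim (curve1 y hy) T ≤ F := by
  rintro _ ⟨g, ⟨n, f, hf, hg⟩, rfl⟩
  have h1 : g.coeff 0 = (phi1 y f).coeff n := by
    rw [← hg]
    simpa using (coeff_X_pow_mul g n 0).symm
  show g.coeff 0 ∈ F
  rw [h1, coeff_phi1]
  exact F.add_mem (hT (coeff_X_mul_mem hf n)) (hY _ (hf n))

end Cfsg.Agent.Lib.PLocal.QO
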