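import Cfsg.Agent.Lib.PLocal.QO.Setup

/-!
# The Lie ring spanned by the conjugates
-/

set_option autoImplicit false

open scoped commutatorElement

namespace Cfsg.Agent.Lib.PLocal.QO

variable {Γ : Type*} [Group Γ] {M : Type*} [Ring M] {p : ℕ} [Fact p.Prime] [Algebra (ZMod p) M]

/-- The data of a conjugating element and a family of mutually normalizing conjugates. -/
structure Dat (ρ : Γ →* M) (𝔞 : AddSubgroup M) (b : Γ) (y : M) (r : ZMod p) : Prop where
  hr : r + r = 1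
  hb : ρ b = 1 + y
  hy : y * y = 0
  h0 : ∀ x ∈ 𝔞, ∀ x' ∈ 𝔞, x * x' = 0
  hg : ∀ x ∈ 𝔞, ∃ g, ρ g = 1 + x
  hn : ∀ t : ZMod p, ∀ x' ∈ 𝔞, ∀ x ∈ 𝔞, (1 + cj y t x') * x * (1 - cj y t x') ∈ 𝔞

theorem cj_zero_right {y : M} (t : ZMod p) : cj y t (0 : M) = 0 := by
  unfold cj
  simp

theorem cj_neg {y : M} (t : ZMod p) (z : M) : cj y t (-z) = - cj y t z := by
  unfold cj
  simp

variable {ρ : Γ →* M} {𝔞 : AddSubgroup M} {b : Γ} {y : M} {r : ZMod p}

namespace Dat

variable (D : Dat ρ 𝔞 b y r)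

include D

theorem sq_cj (t : ZMod p) {x : M} (hx : x ∈ 𝔞) : cj y t x * cj y t x = 0 := by
  rw [← cj_mul D.hy, D.h0 x hx x hx, cj_zero_right]

theorem mid (t : ZMod p) {x'' x' x : M} (hx'' : x'' ∈ 𝔞) (hx' : x' ∈ 𝔞) (hx : x ∈ 𝔞) :
    x'' * cj y t x' * x = 0 := by
  set c := cj y t x' with hc
  have hcc : c * c = 0 := D.sq_cj t hx'
  have h1 := D.h0 x'' hx'' _ (D.hn t x' hx' x hx)
  rw [← hc] at h1
  have h2 : x'' * ((1 + c) * x * (1 - c)) = x'' * c * x * (1 - c) := by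
    have : x'' * ((1 + c) * x * (1 - c)) = (x'' * x) * (1 - c) + x'' * c * x * (1 - c) := by
      noncomm_ring
    rw [this, D.h0 x'' hx'' x hx, zero_mul, zero_add]
  rw [h2] at h1
  calc x'' * c * x = x'' * c * x * ((1 - c) * (1 + c)) := by
        have : (1 - c) * (1 + c) = 1 := by
          have e : (1 - c) * (1 + c) = 1 - c * c := by noncomm_ring
          rw [e, hcc, sub_zero]
        rw [this, mul_one]
    _ = (x'' * c * x * (1 - c)) * (1 + c) := by noncomm_ring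
    _ = 0 := by rw [h1, zero_mul]

theorem star {x'' x' x : M} (hx'' : x'' ∈ 𝔞) (hx' : x' ∈ 𝔞) (hx : x ∈ 𝔞) :
    x'' * y * x' * y * x = 0 := by
  have h := D.mid (1 : ZMod p) hx'' hx' hx
  have e : x'' * cj y (1 : ZMod p) x' * x =
      x'' * x' * x + x'' * y * (x' * x) - x'' * x' * y * x - x'' * y * x' * y * x := by
    rw [cj_eq]
    simp only [one_smul, mul_one, dd, ee]
    noncomm_ring
  rw [e, D.h0 x'' hx'' x' hx', D.h0 x' hx' x hx] at h
  simp only [zero_mul, mul_zero, add_zero, zero_sub, neg_eq_zero, sub_zero] at h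
  exact h

end Dat

variable (p) in
/-- The additive group generated by all conjugates of `𝔞`. -/
def LL (𝔞 : AddSubgroup M) (y : M) : AddSubgroup M :=
  AddSubgroup.closure {z | ∃ t : ZMod p, ∃ x ∈ 𝔞, z = cj y t x}

/-- Generators of a larger subgroup, for the vanishing of triple products. -/
def gen (𝔞 : AddSubgroup M) (y : M) : Set M :=
  {z | ∃ x ∈ 𝔞, z = x ∨ z = y * x ∨ z = x * y ∨ z = y * x * y}

theorem closure_trip {S : Set M} (h : ∀ a ∈ S, ∀ b ∈ S, ∀ c ∈ S, a * b * c = 0) :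
    ∀ a ∈ AddSubgroup.closure S, ∀ b ∈ AddSubgroup.closure S, ∀ c ∈ AddSubgroup.closure S,
      a * b * c = 0 := by
  have h1 : ∀ a ∈ S, ∀ b ∈ S, ∀ c ∈ AddSubgroup.closure S, a * b * c = 0 := by
    intro a ha b hb c hc
    induction hc using AddSubgroup.closure_induction with
    | mem x hx => exact h a ha b hb x hx
    | zero => simp
    | add x y _ _ hx hy => rw [mul_add, hx, hy, add_zero]
    | neg x _ hx => rw [mul_neg, hx, neg_zero]
  have h2 : ∀ a ∈ S, ∀ b ∈ AddSubgroup.closure S, ∀ c ∈ AddSubgroup.closure S, a * b * c = 0 := by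
    intro a ha b hb c hc
    induction hb using AddSubgroup.closure_induction with
    | mem x hx => exact h1 a ha x hx c hc
    | zero => simp
    | add x y _ _ hx hy => rw [mul_add, add_mul, hx, hy, add_zero]
    | neg x _ hx => rw [mul_neg, neg_mul, hx, neg_zero]
  intro a ha b hb c hc
  induction ha using AddSubgroup.closure_induction with
  | mem x hx => exact h2 x hx b hb c hc
  | zero => simp
  | add x y _ _ hx hy => rw [add_mul, add_mul, hx, hy, add_zero]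
  | neg x _ hx => rw [neg_mul, neg_mul, hx, neg_zero]

theorem closure_lie {S : Set M} {L : AddSubgroup M} (h : ∀ a ∈ S, ∀ b ∈ S, a * b - b * a ∈ L) :
    ∀ a ∈ AddSubgroup.closure S, ∀ b ∈ AddSubgroup.closure S, a * b - b * a ∈ L := by
  have h1 : ∀ a ∈ S, ∀ b ∈ AddSubgroup.closure S, a * b - b * a ∈ L := by
    intro a ha b hb
    induction hb using AddSubgroup.closure_induction with
    | mem x hx => exact h a ha x hx
    | zero => simp [L.zero_mem]
    | add x y _ _ hx hy =>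
      have : a * (x + y) - (x + y) * a = (a * x - x * a) + (a * y - y * a) := by noncomm_ring
      rw [this]
      exact L.add_mem hx hy
    | neg x _ hx =>
      have : a * -x - -x * a = -(a * x - x * a) := by noncomm_ring
      rw [this]
      exact L.neg_mem hx
  intro a ha b hb
  induction ha using AddSubgroup.closure_induction with
  | mem x hx => exact h1 x hx b hb
  | zero => simp [L.zero_mem]
  | add x y _ _ hx hy =>
    have : (x + y) * b - b * (x + y) = (x * b - b * x) + (y * b - b * y) := by noncomm_ring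
    rw [this]
    exact L.add_mem hx hy
  | neg x _ hx =>
    have : -x * b - b * -x = -(x * b - b * x) := by noncomm_ring
    rw [this]
    exact L.neg_mem hx

namespace Dat

variable (D : Dat ρ 𝔞 b y r)

include D

theorem gen_trip : ∀ a ∈ gen 𝔞 y, ∀ b ∈ gen 𝔞 y, ∀ c ∈ gen 𝔞 y, a * b * c = 0 := by
  rintro a ⟨x₁, hx₁, h₁⟩ b ⟨x₂, hx₂, h₂⟩ c ⟨x₃, hx₃, h₃⟩
  have h12 := D.h0 x₁ hx₁ x₂ hx₂
  have h23 := D.h0 x₂ hx₂ x₃ hx₃
  have a12 : ∀ w, x₁ * (x₂ * w) = 0 := fun w => by rw [← mul_assoc, h12, zero_mul]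
  have a23 : ∀ w, x₂ * (x₃ * w) = 0 := fun w => by rw [← mul_assoc, h23, zero_mul]
  have ay : ∀ w, y * (y * w) = 0 := fun w => by rw [← mul_assoc, D.hy, zero_mul]
  have st : x₁ * (y * (x₂ * (y * x₃))) = 0 := by
    have := D.star hx₁ hx₂ hx₃
    simpa only [mul_assoc] using this
  have st' : ∀ w, x₁ * (y * (x₂ * (y * (x₃ * w)))) = 0 := fun w => by
    have := congrArg (· * w) st
    simpa only [mul_assoc, zero_mul] using this
  have hy := D.hy
  rcases h₁ with rfl | rfl | rfl | rfl <;> rcases h₂ with rfl | rfl | rfl | rfl <;>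
    rcases h₃ with rfl | rfl | rfl | rfl <;>
    simp only [mul_assoc, h12, h23, a12, a23, ay, st, st', mul_zero, zero_mul]

theorem LL_le : LL p 𝔞 y ≤ AddSubgroup.closure (gen 𝔞 y) := by
  rw [LL, AddSubgroup.closure_le]
  rintro _ ⟨t, x, hx, rfl⟩
  rw [cj_eq, dd, ee]
  have g1 : x ∈ AddSubgroup.closure (gen 𝔞 y) :=
    AddSubgroup.subset_closure ⟨x, hx, Or.inl rfl⟩
  have g2 : y * x ∈ AddSubgroup.closure (gen 𝔞 y) :=
    AddSubgroup.subset_closure ⟨x, hx, Or.inr (Or.inl rfl)⟩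
  have g3 : x * y ∈ AddSubgroup.closure (gen 𝔞 y) :=
    AddSubgroup.subset_closure ⟨x, hx, Or.inr (Or.inr (Or.inl rfl))⟩
  have g4 : y * x * y ∈ AddSubgroup.closure (gen 𝔞 y) :=
    AddSubgroup.subset_closure ⟨x, hx, Or.inr (Or.inr (Or.inr rfl))⟩
  exact AddSubgroup.add_mem _ (AddSubgroup.add_mem _ g1
    (smul_mem_add _ _ (AddSubgroup.sub_mem _ g2 g3))) (smul_mem_add _ _ (AddSubgroup.neg_mem _ g4))

theorem trip_LL : ∀ a ∈ LL p 𝔞 y, ∀ b ∈ LL p 𝔞 y, ∀ c ∈ LL p 𝔞 y, a * b * c = 0 := by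
  intro a ha b hb c hc
  exact closure_trip D.gen_trip a (D.LL_le ha) b (D.LL_le hb) c (D.LL_le hc)

omit D in
theorem cj_mem_LL (t : ZMod p) {x : M} (hx : x ∈ 𝔞) : cj y t x ∈ LL p 𝔞 y :=
  AddSubgroup.subset_closure ⟨t, x, hx, rfl⟩

theorem le_LL : 𝔞 ≤ LL p 𝔞 y := by
  intro x hx
  have := cj_mem_LL (p := p) (y := y) (0 : ZMod p) hx
  rwa [cj_zero] at this

theorem comm_mem {x x' : M} (hx : x ∈ 𝔞) (hx' : x' ∈ 𝔞) (t : ZMod p) :
    x * cj y t x' - cj y t x' * x ∈ 𝔞 := by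
  set c := cj y t x' with hc
  have h1 := D.hn t x' hx' x hx
  rw [← hc] at h1
  have h3 : c * x * c = 0 :=
    D.trip_LL c (cj_mem_LL t hx') x (D.le_LL hx) c (cj_mem_LL t hx')
  have h2 : (1 + c) * x * (1 - c) = x - (x * c - c * x) - c * x * c := by noncomm_ring
  rw [h2, h3, sub_zero] at h1
  have h4 := 𝔞.sub_mem hx h1
  simpa using h4

theorem lie_gen {z w : M} (hz : z ∈ {z | ∃ t : ZMod p, ∃ x ∈ 𝔞, z = cj y t x})
    (hw : w ∈ {z | ∃ t : ZMod p, ∃ x ∈ 𝔞, z = cj y t x}) : z * w - w * z ∈ LL p 𝔞 y := by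
  obtain ⟨s, x, hx, rfl⟩ := hz
  obtain ⟨t, x', hx', rfl⟩ := hw
  have h1 := D.comm_mem hx hx' (t - s)
  have h2 : cj y s (x * cj y (t - s) x' - cj y (t - s) x' * x) =
      cj y s x * cj y t x' - cj y t x' * cj y s x := by
    rw [cj_sub, cj_mul D.hy, cj_mul D.hy, cj_cj D.hy]
    have : s + (t - s) = t := by ring
    rw [this]
  rw [← h2]
  exact cj_mem_LL s h1

theorem trip : Trip (LL p 𝔞 y) where
  trip := D.trip_LL
  lie := closure_lie (fun _ ha _ hb => D.lie_gen ha hb)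

theorem cj_mem {z : M} (t : ZMod p) (hz : z ∈ LL p 𝔞 y) : cj y t z ∈ LL p 𝔞 y := by
  induction hz using AddSubgroup.closure_induction with
  | mem z hz =>
    obtain ⟨s, x, hx, rfl⟩ := hz
    rw [cj_cj D.hy]
    exact cj_mem_LL _ hx
  | zero => rw [cj_zero_right]; exact AddSubgroup.zero_mem _
  | add a c _ _ ha hc => rw [cj_add]; exact AddSubgroup.add_mem _ ha hc
  | neg a _ ha => rw [cj_neg]; exact AddSubgroup.neg_mem _ ha

theorem exists_uu (t : ZMod p) : ρ (b ^ t.val) = uu y t := by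
  rw [map_pow, D.hb, one_add_pow D.hy, uu, ← Nat.cast_smul_eq_nsmul (ZMod p), ZMod.natCast_zmod_val]

theorem rho_inv_uu (t : ZMod p) : ρ (b ^ t.val)⁻¹ = uu y (-t) :=
  rho_inv_eq (by rw [D.exists_uu, uu_mul_neg D.hy])

/-- All exponentials from the Lie ring lie in the group. -/
theorem LL_le_FF : LL p 𝔞 y ≤ FF ρ D.trip D.hr ⊤ := by
  refine (AddSubgroup.closure_le _).2 ?_
  rintro _ ⟨t, x, hx, rfl⟩
  refine ⟨cj_mem_LL t hx, ?_⟩
  rw [Ex_of_sq r (D.sq_cj t hx)]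
  obtain ⟨g, hg⟩ := D.hg x hx
  refine ⟨b ^ t.val * g * (b ^ t.val)⁻¹, Subgroup.mem_top _, ?_⟩
  rw [map_mul, map_mul, D.exists_uu, D.rho_inv_uu, hg, ← cj_one_add D.hy]
  rfl

/-- The key commutator estimate. -/
theorem sub_mem_FF {S S' : Subgroup Γ} (hS : ⁅S, (⊤ : Subgroup Γ)⁆ ≤ S') {z : M}
    (hz : z ∈ FF ρ D.trip D.hr S) (t : ZMod p) : cj y t z - z ∈ FF ρ D.trip D.hr S' := by
  have hL := D.trip
  have hr := D.hr
  have hzL : z ∈ LL p 𝔞 y := hz.1
  have hw : cj y t z - z ∈ LL p 𝔞 y := AddSubgroup.sub_mem _ (D.cj_mem t hzL) hzL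
  set w := cj y t z - z with hw'
  have hzw : cj y t z = z + w := by rw [hw']; abel
  obtain ⟨g, hg, hgz⟩ := hz.2
  have h1 : In ρ S' (Ex r (-z) * Ex r (z + w)) := by
    refine ⟨⁅g⁻¹, b ^ t.val⁆, hS (Subgroup.commutator_mem_commutator (S.inv_mem hg)
      (Subgroup.mem_top _)), ?_⟩
    have e1 : ρ g⁻¹ = Ex r (-z) := rho_inv_eq (by rw [hgz]; exact Ex_mul_neg hL hr hzL)
    rw [commutatorElement_def, map_mul, map_mul, map_mul, e1, inv_inv, hgz, D.exists_uu,
      D.rho_inv_uu, ← hzw, cj_Ex D.hy]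
    noncomm_ring
  rw [Ex_mul hL hr (AddSubgroup.neg_mem _ hzL) (AddSubgroup.add_mem _ hzL hw)] at h1
  have e2 : -z + (z + w) + r • (-z * (z + w) - (z + w) * -z) = w + r • (w * z - z * w) := by
    have : -z * (z + w) - (z + w) * -z = w * z - z * w := by noncomm_ring
    rw [this]
    abel
  rw [e2] at h1
  have h2 : w + r • (w * z - z * w) ∈ FF ρ hL hr S' :=
    ⟨AddSubgroup.add_mem _ hw (smul_mem_add _ _ (hL.lie w hw z hzL)), h1⟩
  have h3 : z * w - w * z ∈ FF ρ hL hr S' :=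
    FF_mono hL hr hS (FF_comm hL hr hz (D.LL_le_FF hw))
  have h4 := AddSubgroup.add_mem _ h2 (smul_mem_add _ r h3)
  have e3 : w + r • (w * z - z * w) + r • (z * w - w * z) = w := by
    rw [add_assoc, ← smul_add]
    simp
  rwa [e3] at h4

end Dat

/-- Recovering `dd` from conjugates. -/
theorem dd_eq_of {r : ZMod p} (hr : r + r = 1) (y z : M) :
    dd y z = r • ((cj y (1 : ZMod p) z - z) - (cj y (-1 : ZMod p) z - z)) := by
  rw [cj_eq, cj_eq]
  have e : (z + (1 : ZMod p) • dd y z + ((1 : ZMod p) * 1) • ee y z - z) -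
      (z + (-1 : ZMod p) • dd y z + ((-1 : ZMod p) * -1) • ee y z - z) = dd y z + dd y z := by
    simp only [one_smul, mul_one, neg_smul, mul_neg, neg_neg]
    abel
  rw [e, smul_add, ← add_smul, hr, one_smul]

theorem ee_eq_of {r : ZMod p} (hr : r + r = 1) (y z : M) :
    ee y z = r • ((cj y (1 : ZMod p) z - z) + (cj y (-1 : ZMod p) z - z)) := by
  rw [cj_eq, cj_eq]
  have e : (z + (1 : ZMod p) • dd y z + ((1 : ZMod p) * 1) • ee y z - z) +
      (z + (-1 : ZMod p) • dd y z + ((-1 : ZMod p) * -1) • ee y z - z) = ee y z + ee y z := by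
    simp only [one_smul, mul_one, neg_smul, mul_neg, neg_neg]
    abel
  rw [e, smul_add, ← add_smul, hr, one_smul]

namespace Dat

variable (D : Dat ρ 𝔞 b y r)

include D

theorem dd_mem_FF {S S' : Subgroup Γ} (hS : ⁅S, (⊤ : Subgroup Γ)⁆ ≤ S') {z : M}
    (hz : z ∈ FF ρ D.trip D.hr S) : dd y z ∈ FF ρ D.trip D.hr S' := by
  rw [dd_eq_of D.hr]
  exact smul_mem_add _ _ (AddSubgroup.sub_mem _ (D.sub_mem_FF hS hz _) (D.sub_mem_FF hS hz _))

theorem ee_mem_FF {S S' : Subgroup Γ} (hS : ⁅S, (⊤ : Subgroup Γ)⁆ ≤ S') {z : M}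
    (hz : z ∈ FF ρ D.trip D.hr S) : ee y z ∈ FF ρ D.trip D.hr S' := by
  rw [ee_eq_of D.hr]
  exact smul_mem_add _ _ (AddSubgroup.add_mem _ (D.sub_mem_FF hS hz _) (D.sub_mem_FF hS hz _))

omit D in
/-- `E = D²/2`. -/
theorem ee_eq_dd_dd (hr : r + r = 1) (z : M) (hy : y * y = 0) : ee y z = r • dd y (dd y z) := by
  have e : dd y (dd y z) = ee y z + ee y z := by
    unfold dd ee
    have h1 : y * (y * z - z * y) - (y * z - z * y) * y =
        (y * y) * z - (y * z * y + y * z * y) + z * (y * y) := by noncomm_ring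
    rw [h1, hy]
    simp only [zero_mul, mul_zero, zero_sub, add_zero]
    abel
  rw [e, smul_add, ← add_smul, hr, one_smul]

end Dat

end Cfsg.Agent.Lib.PLocal.QO
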