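import Cfsg.Agent.Lib.PLocal.QO.Main
import Cfsg.Agent.Lib.QuadAct.FFDict

/-!
# Quadratic offenders normal in their normal closure: the group statement
-/

set_option autoImplicit false

open scoped commutatorElement

namespace Cfsg.Agent.Lib.PLocal.QO

open Cfsg.Agent.Lib.QuadAct.FFDict Cfsg.Agent.Lib.QuadAct.FFBasic
open Cfsg.Agent.Lib.QuadAct.Replacement

section Gamma

variable {Γ : Type*} [Group Γ] {p : ℕ} [Fact p.Prime] {W : Type*} [AddCommGroup W]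
  [Module (ZMod p) W] {ρ : Γ →* Module.End (ZMod p) W}

theorem sq_zero_of_quad {S : Subgroup Γ}
    (hq : Cfsg.Agent.Lib.QuadAct.FFDicho.comm ρ S ≤ fix ρ S) {g g' : Γ} (hg : g ∈ S) (hg' : g' ∈ S)
    {x x' : Module.End (ZMod p) W} (e : ρ g = 1 + x) (e' : ρ g' = 1 + x') : x * x' = 0 := by
  ext m
  have h1 : ρ g' m - m ∈ Cfsg.Agent.Lib.QuadAct.FFDicho.comm ρ S :=
    Submodule.subset_span ⟨g', hg', m, rfl⟩
  have h2 := hq h1 g hg
  have hx : x = ρ g - 1 := by rw [e]; abel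
  have hx' : x' = ρ g' - 1 := by rw [e']; abel
  rw [hx, hx']
  show (ρ g - 1) ((ρ g' - 1) m) = 0
  simp only [LinearMap.sub_apply, Module.End.one_apply]
  exact sub_eq_zero.mpr h2

/-- The square-zero subgroup attached to a quadratic subgroup. -/
def ofGrp (ρ : Γ →* Module.End (ZMod p) W) (S : Subgroup Γ)
    (hq : Cfsg.Agent.Lib.QuadAct.FFDicho.comm ρ S ≤ fix ρ S) :
    AddSubgroup (Module.End (ZMod p) W) where
  carrier := {x | ∃ g ∈ S, ρ g = 1 + x}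
  add_mem' := by
    rintro x x' ⟨g, hg, e⟩ ⟨g', hg', e'⟩
    refine ⟨g * g', S.mul_mem hg hg', ?_⟩
    have h0 := sq_zero_of_quad hq hg hg' e e'
    rw [map_mul, e, e']
    have e2 : (1 + x) * (1 + x') = 1 + (x + x') + x * x' := by noncomm_ring
    rw [e2, h0, add_zero]
  zero_mem' := ⟨1, S.one_mem, by simp⟩
  neg_mem' := by
    rintro x ⟨g, hg, e⟩
    refine ⟨g⁻¹, S.inv_mem hg, rho_inv_eq ?_⟩
    have h0 := sq_zero_of_quad hq hg hg e e
    rw [e]
    have e2 : (1 + x) * (1 + -x) = 1 - x * x := by noncomm_ring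
    rw [e2, h0, sub_zero]

theorem mem_ofGrp {S : Subgroup Γ} {hq : Cfsg.Agent.Lib.QuadAct.FFDicho.comm ρ S ≤ fix ρ S}
    {x : Module.End (ZMod p) W} : x ∈ ofGrp ρ S hq ↔ ∃ g ∈ S, ρ g = 1 + x := Iff.rfl

theorem card_ofGrp (hinj : Function.Injective ρ) {S : Subgroup Γ}
    (hq : Cfsg.Agent.Lib.QuadAct.FFDicho.comm ρ S ≤ fix ρ S) :
    Nat.card (ofGrp ρ S hq) = Nat.card S := by
  symm
  refine Nat.card_congr (Equiv.ofBijective
    (fun g : S => (⟨ρ g - 1, (g : Γ), g.2, by abel⟩ : ofGrp ρ S hq)) ⟨?_, ?_⟩)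
  · intro g g' h
    have h1 : ρ (g : Γ) - 1 = ρ (g' : Γ) - 1 := congrArg Subtype.val h
    exact Subtype.ext (hinj (sub_left_injective h1))
  · rintro ⟨x, g, hg, e⟩
    refine ⟨⟨g, hg⟩, Subtype.ext ?_⟩
    show ρ g - 1 = x
    rw [e]
    abel

theorem kerA_ofGrp {S : Subgroup Γ}
    (hq : Cfsg.Agent.Lib.QuadAct.FFDicho.comm ρ S ≤ fix ρ S) :
    Nat.card (kerA (ofGrp ρ S hq)) = Nat.card (fix ρ S) := by
  refine Nat.card_congr (Equiv.subtypeEquivRight fun w => ?_)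
  constructor
  · intro h g hg
    have h1 : (ρ g - 1) w = 0 := h _ ⟨g, hg, by abel⟩
    simp only [LinearMap.sub_apply, Module.End.one_apply] at h1
    exact sub_eq_zero.mp h1
  · rintro h x ⟨g, hg, e⟩
    have h1 := h g hg
    rw [e] at h1
    simpa using h1

theorem good_ofGrp (hinj : Function.Injective ρ) {S : Subgroup Γ}
    (hq : Cfsg.Agent.Lib.QuadAct.FFDicho.comm ρ S ≤ fix ρ S) (hne : S ≠ ⊥)
    (hoff : Nat.card W ≤ Nat.card S * Nat.card (fix ρ S)) : Good ρ (ofGrp ρ S hq) := by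
  refine ⟨?_, ?_, ?_, ?_⟩
  · intro h
    obtain ⟨g, hg, hg1⟩ := S.bot_or_exists_ne_one.resolve_left hne
    have h1 : ρ g - 1 ∈ ofGrp ρ S hq := ⟨g, hg, by abel⟩
    rw [h, AddSubgroup.mem_bot] at h1
    apply hg1
    apply hinj
    rw [map_one]
    exact sub_eq_zero.mp h1
  · rintro x ⟨g, hg, e⟩ x' ⟨g', hg', e'⟩
    exact sq_zero_of_quad hq hg hg' e e'
  · rintro x ⟨g, _, e⟩
    exact ⟨g, e⟩
  · rw [card_ofGrp hinj, kerA_ofGrp]
    exact hoff

variable {𝔞 : AddSubgroup (Module.End (ZMod p) W)} (hG : Good ρ 𝔞)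

include hG

theorem card_grp (hinj : Function.Injective ρ) : Nat.card (grp ρ 𝔞 hG.zero) = Nat.card 𝔞 := by
  refine Nat.card_congr (Equiv.ofBijective
    (fun g : grp ρ 𝔞 hG.zero => (⟨ρ g - 1, g.2⟩ : 𝔞)) ⟨?_, ?_⟩)
  · intro g g' h
    have h1 : ρ (g : Γ) - 1 = ρ (g' : Γ) - 1 := congrArg Subtype.val h
    exact Subtype.ext (hinj (sub_left_injective h1))
  · rintro ⟨x, hx⟩
    obtain ⟨g, e⟩ := hG.mem x hx
    have h1 : ρ g - 1 = x := by rw [e]; abel
    refine ⟨⟨g, ?_⟩, Subtype.ext h1⟩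
    show ρ g - 1 ∈ 𝔞
    rw [h1]
    exact hx

theorem fix_grp : Nat.card (fix ρ (grp ρ 𝔞 hG.zero)) = Nat.card (kerA 𝔞) := by
  refine Nat.card_congr (Equiv.subtypeEquivRight fun w => ?_)
  constructor
  · intro h x hx
    obtain ⟨g, e⟩ := hG.mem x hx
    have h1 : ρ g - 1 = x := by rw [e]; abel
    have h2 := h g (by show ρ g - 1 ∈ 𝔞; rw [h1]; exact hx)
    rw [← h1]
    simp only [LinearMap.sub_apply, Module.End.one_apply]
    exact sub_eq_zero.mpr h2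
  · intro h g hg
    have h1 : (ρ g - 1) w = 0 := h _ hg
    simp only [LinearMap.sub_apply, Module.End.one_apply] at h1
    exact sub_eq_zero.mp h1

theorem comm_le_fix_grp :
    Cfsg.Agent.Lib.QuadAct.FFDicho.comm ρ (grp ρ 𝔞 hG.zero) ≤ fix ρ (grp ρ 𝔞 hG.zero) := by
  refine Submodule.span_le.mpr ?_
  rintro _ ⟨g, hg, w, rfl⟩ g' hg'
  have h0 : (ρ g' - 1) * (ρ g - 1) = 0 := hG.zero _ hg' _ hg
  have h1 : ((ρ g' - 1) * (ρ g - 1)) w = 0 := by rw [h0]; rfl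
  simp only [Module.End.mul_apply, LinearMap.sub_apply, Module.End.one_apply] at h1
  exact sub_eq_zero.mp h1

theorem grp_ne_bot : grp ρ 𝔞 hG.zero ≠ ⊥ := by
  intro h
  obtain ⟨x, hx, hx0⟩ := 𝔞.bot_or_exists_ne_zero.resolve_left hG.ne
  obtain ⟨g, e⟩ := hG.mem x hx
  have h1 : ρ g - 1 = x := by rw [e]; abel
  have hg : g ∈ grp ρ 𝔞 hG.zero := by
    show ρ g - 1 ∈ 𝔞
    rw [h1]
    exact hx
  rw [h, Subgroup.mem_bot] at hg
  rw [hg, map_one, sub_self] at h1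
  exact hx0 h1.symm

theorem grp_comm (hinj : Function.Injective ρ) {g g' : Γ} (hg : g ∈ grp ρ 𝔞 hG.zero)
    (hg' : g' ∈ grp ρ 𝔞 hG.zero) : g * g' = g' * g := by
  apply hinj
  have h0 : (ρ g - 1) * (ρ g' - 1) = 0 := hG.zero _ hg _ hg'
  have h1 : (ρ g' - 1) * (ρ g - 1) = 0 := hG.zero _ hg' _ hg
  rw [map_mul, map_mul]
  have e1 : ρ g * ρ g' = (ρ g - 1) * (ρ g' - 1) + ρ g + ρ g' - 1 := by noncomm_ring
  have e2 : ρ g' * ρ g = (ρ g' - 1) * (ρ g - 1) + ρ g + ρ g' - 1 := by noncomm_ring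
  rw [e1, e2, h0, h1]

theorem grp_pow (hinj : Function.Injective ρ) {g : Γ} (hg : g ∈ grp ρ 𝔞 hG.zero) : g ^ p = 1 := by
  apply hinj
  have h0 : (ρ g - 1) * (ρ g - 1) = 0 := hG.zero _ hg _ hg
  have e : ρ g = 1 + (ρ g - 1) := by abel
  rw [map_pow, map_one, e, one_add_pow h0]
  have h2 : p • (ρ g - 1) = 0 := by
    have hc := CharP.cast_eq_zero (ZMod p) p
    rw [← Nat.cast_smul_eq_nsmul (ZMod p), hc, zero_smul]
  rw [add_sub_cancel, h2, add_zero] at *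

end Gamma

section Ambient

universe u

variable {Ω : Type u} [Group Ω] [Finite Ω] {p : ℕ} [Fact p.Prime] {V G : Subgroup Ω}

/-- A quadratic offender below an offender. -/
theorem exists_quadratic_offender (hV : Cfsg.IsElementaryAbelian p V)
    (hGV : G ≤ Subgroup.normalizer (V : Set Ω))
    (hfaith : G ⊓ Subgroup.centralizer (V : Set Ω) = ⊥)
    (hF : ∃ E : Subgroup Ω, E ≤ G ∧ E ≠ ⊥ ∧ Cfsg.IsElementaryAbelian p E ∧
      Nat.card ↥V ≤ Nat.card ↥E * Nat.card ↥(V ⊓ Subgroup.centralizer (E : Set Ω))) :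
    ∃ K : Subgroup Ω, K ≤ G ∧ K ≠ ⊥ ∧
      Nat.card ↥V ≤ Nat.card ↥K * Nat.card ↥(V ⊓ Subgroup.centralizer (K : Set Ω)) ∧
      ⁅V, K⁆ ≤ V ⊓ Subgroup.centralizer (K : Set Ω) := by
  obtain ⟨E, hEG, hE0, hEa, hEoff⟩ := hF
  obtain ⟨A, ⟨hAE, hA0⟩, hmax⟩ := Set.exists_max_image {B : Subgroup Ω | B ≤ E ∧ B ≠ ⊥}
    (offProd V) (Set.toFinite _) ⟨E, le_rfl, hE0⟩
  have hoffA : Nat.card ↥V ≤ offProd V A := hEoff.trans (hmax E ⟨le_rfl, hE0⟩)
  have hAa : Cfsg.IsElementaryAbelian p A := IsElementaryAbelian_of_le hEa hAE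
  have hbot : offProd V (⊥ : Subgroup Ω) = Nat.card ↥V := by
    unfold offProd
    have e : V ⊓ Subgroup.centralizer (((⊥ : Subgroup Ω) : Subgroup Ω) : Set Ω) = V := by
      refine inf_eq_left.mpr fun x _ => Subgroup.mem_centralizer_iff.mpr fun g hg => ?_
      have : g = 1 := hg
      rw [this, one_mul, mul_one]
    rw [e, Subgroup.card_bot, one_mul]
  have hbest : Cfsg.IsBestOffenderOn p V A := by
    refine ⟨fun B hB => ?_, ?_, fun a ha => ?_⟩
    · by_cases hB0 : B = ⊥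
      · subst hB0
        have e : Nat.card ↥(⊥ : Subgroup Ω) * Nat.card ↥(V ⊓ Subgroup.centralizer
            ((⊥ : Subgroup Ω) : Set Ω)) = offProd V (⊥ : Subgroup Ω) := rfl
        rw [e, hbot]
        exact hoffA
      · exact hmax B ⟨hB.trans hAE, hB0⟩
    · have : ⁅A, A⁆ = ⊥ := by
        rw [Subgroup.commutator_eq_bot_iff_le_centralizer]
        intro a ha
        refine Subgroup.mem_centralizer_iff.mpr fun b hb => ?_
        exact Cfsg.Agent.Lib.QuadAct.Basic.comm_of_isMulCommutative hAa.1 hb ha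
      rw [this]
      exact bot_le
    · rw [hAa.2 a ha]
      exact Subgroup.one_mem _
  have hAV : A ≤ Subgroup.normalizer (V : Set Ω) := (hAE.trans hEG).trans hGV
  obtain ⟨-, -, h3⟩ := timmesfeld_replacement hV hAV hbest (le_refl V)
  obtain ⟨h1, -⟩ := replacement_of_best hV.1 hAV hbest.2.1 (IsBest_of_bestOffender hbest) (le_refl V)
  have hVA : ⁅V, A⁆ ≠ ⊥ := by
    intro h
    apply hA0
    rw [eq_bot_iff, ← hfaith]
    refine fun a ha => ⟨hEG (hAE ha), ?_⟩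
    refine Subgroup.mem_centralizer_iff.mpr fun v hv => ?_
    have := Subgroup.commutator_mem_commutator hv ha
    rw [h, Subgroup.mem_bot] at this
    exact commutatorElement_eq_one_iff_mul_comm.mp this
  have hK := h3 hVA
  set K := A ⊓ Subgroup.centralizer ((⁅V, A⁆ : Subgroup Ω) : Set Ω) with hKdef
  refine ⟨K, inf_le_left.trans (hAE.trans hEG), ?_, ?_, ?_⟩
  · intro hK0
    apply hK
    rw [eq_bot_iff, Subgroup.commutator_le]
    intro v _ g hg
    rw [hK0, Subgroup.mem_bot] at hg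
    rw [hg, Subgroup.mem_bot, commutatorElement_one_right]
  · have e : Nat.card ↥K * Nat.card ↥(V ⊓ Subgroup.centralizer (K : Set Ω)) = offProd V K := rfl
    rw [e, h1]
    exact hoffA
  · have hle : ⁅V, K⁆ ≤ ⁅V, A⁆ := Subgroup.commutator_mono le_rfl inf_le_left
    refine le_inf ((hle).trans (Cfsg.Agent.Lib.QuadAct.Basic.commutator_le_of_le_normalizer hAV)) ?_
    intro x hx
    refine Subgroup.mem_centralizer_iff.mpr fun k hk => ?_
    exact ((Subgroup.mem_centralizer_iff.mp hk.2) x (hle hx)).symm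

/-- Quadratic offenders normal in their normal closure, for odd primes. -/
theorem exists_offender_normal (hp : p ≠ 2) (hV : Cfsg.IsElementaryAbelian p V)
    (hG : IsPGroup p ↥G) (hGV : G ≤ Subgroup.normalizer (V : Set Ω))
    (hfaith : G ⊓ Subgroup.centralizer (V : Set Ω) = ⊥)
    (hF : ∃ E : Subgroup Ω, E ≤ G ∧ E ≠ ⊥ ∧ Cfsg.IsElementaryAbelian p E ∧
      Nat.card ↥V ≤ Nat.card ↥E * Nat.card ↥(V ⊓ Subgroup.centralizer (E : Set Ω))) :
    ∃ A : Subgroup Ω, A ≤ G ∧ A ≠ ⊥ ∧ Cfsg.IsElementaryAbelian p A ∧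
      Nat.card ↥V ≤ Nat.card ↥A * Nat.card ↥(V ⊓ Subgroup.centralizer (A : Set Ω)) ∧
      ⁅⁅V, A⁆, A⁆ = ⊥ ∧
      ∀ g ∈ Subgroup.closure {x : Ω | ∃ h ∈ G, ∃ a ∈ A, x = h * a * h⁻¹}, ∀ a ∈ A,
        g * a * g⁻¹ ∈ A := by
  obtain ⟨M, _, _, _, ρ, ι, D⟩ := exists_coord (p := p) hV hGV hfaith
  obtain ⟨K, hKG, hK0, hKoff, hKq⟩ := exists_quadratic_offender hV hGV hfaith hF
  have hKq' : Cfsg.Agent.Lib.QuadAct.FFDicho.comm ρ (K.subgroupOf G) ≤ fix ρ (K.subgroupOf G) := by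
    rw [← IsCoord.toG_le_iff (D := D), D.comm_dict hKG, D.fix_dict hKG]
    exact hKq
  have hKne : K.subgroupOf G ≠ ⊥ := by
    intro h
    apply hK0
    rw [eq_bot_iff]
    intro x hx
    have h1 : (⟨x, hKG hx⟩ : G) ∈ K.subgroupOf G := hx
    rw [h, Subgroup.mem_bot] at h1
    exact Subgroup.mem_bot.mpr (congrArg Subtype.val h1)
  have hgood := good_ofGrp D.faith hKq' hKne (by
    rw [D.card_M, D.card_subgroupOf hKG]
    have h1 := IsCoord.card_toG D (fix ρ (K.subgroupOf G))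
    rw [D.fix_dict hKG] at h1
    rw [← h1]
    exact hKoff)
  have : Group.IsNilpotent ↥G := hG.isNilpotent
  obtain ⟨𝔞, h𝔞, hnorm⟩ := exists_good_normal (ρ := ρ) hp ⟨_, hgood⟩
  set B : Subgroup ↥G := grp ρ 𝔞 h𝔞.zero with hB
  have hsub : (B.map G.subtype).subgroupOf G = B :=
    Subgroup.comap_map_eq_self_of_injective G.subtype_injective B
  set A : Subgroup Ω := B.map G.subtype with hAdef
  have hAG : A ≤ G := Subgroup.map_subtype_le B
  have hmemA : ∀ {x : ↥G}, (x : Ω) ∈ A ↔ x ∈ B := by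
    intro x
    constructor
    · rintro ⟨y, hy, e⟩
      have : y = x := Subtype.ext e
      rwa [← this]
    · intro hx
      exact ⟨x, hx, rfl⟩
  have hcardA : Nat.card A = Nat.card 𝔞 := by
    rw [← D.card_subgroupOf hAG, hsub, card_grp h𝔞 D.faith]
  have hcardC : Nat.card ↥(V ⊓ Subgroup.centralizer (A : Set Ω)) = Nat.card (kerA 𝔞) := by
    have h1 := IsCoord.card_toG D (fix ρ (A.subgroupOf G))
    rw [D.fix_dict hAG] at h1
    rw [h1, hsub, fix_grp h𝔞]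
  refine ⟨A, hAG, ?_, ?_, ?_, ?_, ?_⟩
  · intro h
    apply grp_ne_bot h𝔞
    rw [eq_bot_iff]
    intro x hx
    have h1 : (x : Ω) ∈ A := hmemA.mpr hx
    rw [h, Subgroup.mem_bot] at h1
    exact Subgroup.mem_bot.mpr (Subtype.ext h1)
  · refine ⟨⟨⟨?_⟩⟩, ?_⟩
    · rintro ⟨a, x, hx, rfl⟩ ⟨b, y, hy, rfl⟩
      apply Subtype.ext
      have h1 := grp_comm h𝔞 D.faith hx hy
      show (x : Ω) * (y : Ω) = (y : Ω) * (x : Ω)
      exact congrArg Subtype.val h1
    · rintro a ⟨x, hx, rfl⟩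
      exact congrArg Subtype.val (grp_pow h𝔞 D.faith hx)
  · rw [hcardA, hcardC, ← D.card_M]
    exact h𝔞.off
  · have hle : ⁅V, A⁆ ≤ V ⊓ Subgroup.centralizer (A : Set Ω) := by
      rw [← D.comm_dict hAG, ← D.fix_dict hAG, IsCoord.toG_le_iff, hsub]
      exact comm_le_fix_grp h𝔞
    rw [eq_bot_iff, Subgroup.commutator_le]
    intro x hx a ha
    have h1 := (Subgroup.mem_centralizer_iff.mp (hle hx).2) a ha
    rw [Subgroup.mem_bot]
    exact commutatorElement_eq_one_iff_mul_comm.mpr h1.symm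
  · have hcl : Subgroup.closure {x : Ω | ∃ h ∈ G, ∃ a ∈ A, x = h * a * h⁻¹} ≤
        Subgroup.normalizer (A : Set Ω) := by
      rw [Subgroup.closure_le]
      rintro _ ⟨h, hh, _, ⟨a, ha, rfl⟩, rfl⟩
      refine mem_normalizer_of_conj_mem ?_
      rintro _ ⟨b, hb, rfl⟩
      have h1 := hnorm ⟨h, hh⟩ a ha
      have h2 := (Subgroup.mem_normalizer_iff.mp h1 b).mp hb
      exact hmemA.mpr h2
    intro g hg a ha
    exact (Subgroup.mem_normalizer_iff.mp (hcl hg) a).mp ha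

end Ambient

end Cfsg.Agent.Lib.PLocal.QO
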