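import Mathlib

/-!
# Limits of subgroups along polynomial curves

`M` is a finite ring, `T` an additive subgroup of `M` and `Φ : M[X] →+ M[X]` commutes with
multiplication by `X`, is injective and raises degrees by at most `d`.  The saturation
`{g | ∃ n f, f has coefficients in T, X^n * g = Φ f}` has constant terms forming a group `lim`,
and `#T ≤ #lim`.
-/

set_option autoImplicit false

open Polynomial

namespace Cfsg.Agent.Lib.PLocal.QO

variable {M : Type*} [Ring M]

/-- Polynomials with all coefficients in `T`. -/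
def polyIn (T : AddSubgroup M) : AddSubgroup M[X] where
  carrier := {f | ∀ n, f.coeff n ∈ T}
  add_mem' := by
    intro a b ha hb n
    rw [coeff_add]
    exact T.add_mem (ha n) (hb n)
  zero_mem' := by
    intro n
    rw [coeff_zero]
    exact T.zero_mem
  neg_mem' := by
    intro a ha n
    rw [coeff_neg]
    exact T.neg_mem (ha n)

theorem mem_polyIn {T : AddSubgroup M} {f : M[X]} : f ∈ polyIn T ↔ ∀ n, f.coeff n ∈ T := Iff.rfl

theorem X_pow_mul_mem_polyIn {T : AddSubgroup M} {f : M[X]} (hf : f ∈ polyIn T) (n : ℕ) :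
    X ^ n * f ∈ polyIn T := by
  intro k
  rw [coeff_X_pow_mul']
  split_ifs
  · exact hf _
  · exact T.zero_mem

/-- Data on the curve. -/
structure Curve (Φ : M[X] →+ M[X]) (d : ℕ) : Prop where
  shift : ∀ f, Φ (X * f) = X * Φ f
  inj : Function.Injective Φ
  deg : ∀ (m : ℕ) (f : M[X]), (∀ k, m ≤ k → f.coeff k = 0) → ∀ k, m + d ≤ k → (Φ f).coeff k = 0

variable {Φ : M[X] →+ M[X]} {d : ℕ}

theorem Curve.shift_pow (hC : Curve Φ d) (n : ℕ) (f : M[X]) : Φ (X ^ n * f) = X ^ n * Φ f := by
  induction n with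
  | zero => simp
  | succ n ih => rw [pow_succ', mul_assoc, hC.shift, ih, mul_assoc]

/-- Saturation of the image of `polyIn T`. -/
def sat (hC : Curve Φ d) (T : AddSubgroup M) : AddSubgroup M[X] where
  carrier := {g | ∃ n f, f ∈ polyIn T ∧ X ^ n * g = Φ f}
  add_mem' := by
    rintro a b ⟨n, f, hf, h1⟩ ⟨m, e, he, h2⟩
    refine ⟨n + m, X ^ m * f + X ^ n * e, (polyIn T).add_mem (X_pow_mul_mem_polyIn hf m)
      (X_pow_mul_mem_polyIn he n), ?_⟩
    rw [map_add, hC.shift_pow, hC.shift_pow, ← h1, ← h2, mul_add, pow_add, ← mul_assoc, ← mul_assoc,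
      ← pow_add, ← pow_add, add_comm m n]
  zero_mem' := ⟨0, 0, (polyIn T).zero_mem, by simp⟩
  neg_mem' := by
    rintro a ⟨n, f, hf, h⟩
    exact ⟨n, -f, (polyIn T).neg_mem hf, by rw [mul_neg, h, map_neg]⟩

theorem mem_sat {hC : Curve Φ d} {T : AddSubgroup M} {g : M[X]} :
    g ∈ sat hC T ↔ ∃ n f, f ∈ polyIn T ∧ X ^ n * g = Φ f := Iff.rfl

/-- Constant term. -/
noncomputable def c0 : M[X] →+ M where
  toFun f := f.coeff 0
  map_zero' := coeff_zero 0
  map_add' a b := coeff_add a b 0

theorem c0_apply (f : M[X]) : c0 f = f.coeff 0 := rfl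

/-- The limit of `T`: constant terms of the saturation. -/
noncomputable def lim (hC : Curve Φ d) (T : AddSubgroup M) : AddSubgroup M := (sat hC T).map c0

theorem mem_lim {hC : Curve Φ d} {T : AddSubgroup M} {z : M} :
    z ∈ lim hC T ↔ ∃ g ∈ sat hC T, g.coeff 0 = z := Iff.rfl

/-- Polynomials of degree below `m`. -/
def ltDeg (M : Type*) [Ring M] (m : ℕ) : AddSubgroup M[X] where
  carrier := {f | ∀ k, m ≤ k → f.coeff k = 0}
  add_mem' := by
    intro a b ha hb k hk
    rw [coeff_add, ha k hk, hb k hk, add_zero]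
  zero_mem' := fun k _ => coeff_zero k
  neg_mem' := by
    intro a ha k hk
    rw [coeff_neg, ha k hk, neg_zero]

theorem finite_ltDeg [Finite M] (m : ℕ) : Finite (ltDeg M m) := by
  refine Finite.of_injective (fun f => fun i : Fin m => f.1.coeff i) ?_
  intro f g h
  apply Subtype.ext
  ext k
  by_cases hk : k < m
  · exact congrFun h ⟨k, hk⟩
  · rw [f.2 k (not_lt.mp hk), g.2 k (not_lt.mp hk)]

/-- The bounded part of the saturation. -/
noncomputable def satLT (hC : Curve Φ d) (T : AddSubgroup M) (m : ℕ) : AddSubgroup M[X] :=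
  sat hC T ⊓ ltDeg M m

theorem finite_satLT [Finite M] (hC : Curve Φ d) (T : AddSubgroup M) (m : ℕ) :
    Finite (satLT hC T m) := by
  have := finite_ltDeg (M := M) m
  exact Finite.of_injective (fun f : satLT hC T m => (⟨f.1, f.2.2⟩ : ltDeg M m))
    (fun f g h => Subtype.ext (congrArg (fun x : ltDeg M m => x.1) h))

theorem card_satLT_succ [Finite M] (hC : Curve Φ d) (T : AddSubgroup M) (m : ℕ) :
    Nat.card (satLT hC T (m + 1)) ≤ Nat.card (satLT hC T m) * Nat.card (lim hC T) := by
  have := finite_satLT hC T m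
  have := finite_satLT hC T (m + 1)
  let φ : satLT hC T (m + 1) →+ M := c0.comp (satLT hC T (m + 1)).subtype
  have h1 : Nat.card (satLT hC T (m + 1)) = Nat.card φ.ker * Nat.card φ.range := by
    rw [← AddSubgroup.card_mul_index φ.ker, AddSubgroup.index_ker]
  rw [h1]
  apply Nat.mul_le_mul
  · -- the kernel injects by division by `X`
    have hmem : ∀ g : φ.ker, divX g.1.1 ∈ satLT hC T m := by
      rintro ⟨⟨g, hg1, hg2⟩, hg⟩
      have hg0 : g.coeff 0 = 0 := hg
      have hgX : X * divX g = g := by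
        have := divX_mul_X_add g
        rw [hg0, map_zero, add_zero, ← X_mul] at this
        exact this
      obtain ⟨n, f, hf, h⟩ := hg1
      refine ⟨⟨n + 1, f, hf, ?_⟩, ?_⟩
      · rw [pow_succ, mul_assoc, hgX, h]
      · intro k hk
        show (divX g).coeff k = 0
        rw [coeff_divX]
        exact hg2 (k + 1) (Nat.succ_le_succ hk)
    refine Nat.card_le_card_of_injective (fun g => (⟨divX g.1.1, hmem g⟩ : satLT hC T m)) ?_
    rintro ⟨⟨g, hg1⟩, hg⟩ ⟨⟨g', hg1'⟩, hg'⟩ h
    have hg0 : g.coeff 0 = 0 := hg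
    have hg0' : g'.coeff 0 = 0 := hg'
    have h2 : divX g = divX g' := congrArg (fun x : satLT hC T m => x.1) h
    apply Subtype.ext
    apply Subtype.ext
    ext k
    cases k with
    | zero => show g.coeff 0 = g'.coeff 0; rw [hg0, hg0']
    | succ k =>
      show g.coeff (k + 1) = g'.coeff (k + 1)
      rw [← coeff_divX, ← coeff_divX, h2]
  · -- the range lies in the limit
    have hle : φ.range ≤ lim hC T := by
      rintro _ ⟨g, rfl⟩
      exact ⟨g.1, g.2.1, rfl⟩
    exact Nat.card_le_card_of_injective _ (AddSubgroup.inclusion_injective hle)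

theorem satLT_zero (hC : Curve Φ d) (T : AddSubgroup M) : Nat.card (satLT hC T 0) = 1 := by
  have : ∀ x : satLT hC T 0, x = 0 := by
    rintro ⟨g, -, hg⟩
    apply Subtype.ext
    ext k
    exact hg k (Nat.zero_le k)
  have : Subsingleton (satLT hC T 0) := ⟨fun a b => by rw [this a, this b]⟩
  exact Nat.card_unique

theorem card_satLT_le [Finite M] (hC : Curve Φ d) (T : AddSubgroup M) (m : ℕ) :
    Nat.card (satLT hC T m) ≤ Nat.card (lim hC T) ^ m := by
  induction m with
  | zero => rw [satLT_zero, pow_zero]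
  | succ m ih =>
    refine (card_satLT_succ hC T m).trans ?_
    rw [pow_succ]
    exact Nat.mul_le_mul_right _ ih

/-- The polynomial with prescribed coefficients. -/
noncomputable def ofFn' {n : ℕ} (τ : Fin n → M) : M[X] := ∑ i : Fin n, monomial (i : ℕ) (τ i)

theorem coeff_ofFn' {n : ℕ} (τ : Fin n → M) (k : ℕ) :
    (ofFn' τ).coeff k = if h : k < n then τ ⟨k, h⟩ else 0 := by
  unfold ofFn'
  rw [finsetSum_coeff]
  simp only [coeff_monomial]
  split_ifs with h
  · rw [Finset.sum_eq_single (⟨k, h⟩ : Fin n)]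
    · simp
    · intro b _ hb
      rw [if_neg]
      intro hbk
      exact hb (Fin.ext hbk)
    · simp
  · apply Finset.sum_eq_zero
    intro i _
    rw [if_neg]
    intro hik
    exact h (hik ▸ i.2)

theorem pow_le_card_satLT [Finite M] (hC : Curve Φ d) (T : AddSubgroup M) (n : ℕ) :
    Nat.card T ^ n ≤ Nat.card (satLT hC T (n + d)) := by
  have := finite_satLT hC T (n + d)
  have hcard : Nat.card (Fin n → T) = Nat.card T ^ n := by
    rw [Nat.card_fun, Nat.card_fin]
  rw [← hcard]
  have hmem : ∀ τ : Fin n → T, Φ (ofFn' (fun i => (τ i : M))) ∈ satLT hC T (n + d) := by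
    intro τ
    refine ⟨⟨0, ofFn' (fun i => (τ i : M)), ?_, by simp⟩, ?_⟩
    · intro k
      rw [coeff_ofFn']
      split_ifs
      · exact (τ _).2
      · exact T.zero_mem
    · intro k hk
      refine hC.deg n _ ?_ k hk
      intro j hj
      rw [coeff_ofFn', dif_neg (not_lt.mpr hj)]
  refine Nat.card_le_card_of_injective (fun τ => (⟨_, hmem τ⟩ : satLT hC T (n + d))) ?_
  intro τ τ' h
  have h1 := hC.inj (congrArg (fun x : satLT hC T (n + d) => x.1) h)
  funext i
  apply Subtype.ext
  have h2 := congrArg (fun f : M[X] => f.coeff i) h1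
  simpa [coeff_ofFn'] using h2

theorem pow_aux (b n : ℕ) : b ^ n * (b + n) ≤ (b + 1) ^ n * b := by
  induction n with
  | zero => simp
  | succ n ih =>
    have h : (b + 1) * (b ^ n * (b + n)) ≤ (b + 1) * ((b + 1) ^ n * b) := Nat.mul_le_mul_left _ ih
    calc b ^ (n + 1) * (b + (n + 1)) = b ^ n * (b * (b + (n + 1))) := by ring
      _ ≤ b ^ n * ((b + 1) * (b + n)) := by
          apply Nat.mul_le_mul_left
          nlinarith
      _ = (b + 1) * (b ^ n * (b + n)) := by ring
      _ ≤ (b + 1) * ((b + 1) ^ n * b) := h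
      _ = (b + 1) ^ (n + 1) * b := by ring

theorem le_of_forall_pow_le {a b d : ℕ} (hb : 0 < b) (h : ∀ n, a ^ n ≤ b ^ (n + d)) : a ≤ b := by
  by_contra hab
  have hab' : b + 1 ≤ a := by omega
  set n := b ^ (d + 1) with hn
  have h1 : b ^ n * (b + n) ≤ (b + 1) ^ n * b := pow_aux b n
  have h2 : (b + 1) ^ n * b ≤ a ^ n * b := Nat.mul_le_mul_right _ (Nat.pow_le_pow_left hab' n)
  have h3 : a ^ n * b ≤ b ^ (n + d) * b := Nat.mul_le_mul_right _ (h n)
  have h4 : b ^ (n + d) * b = b ^ n * n := by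
    rw [hn]
    ring
  have h5 : b ^ n * (b + n) ≤ b ^ n * n := by
    calc _ ≤ _ := h1
      _ ≤ _ := h2
      _ ≤ _ := h3
      _ = _ := h4
  have h6 : b + n ≤ n := Nat.le_of_mul_le_mul_left h5 (pow_pos hb n)
  omega

/-- The limit is at least as large as `T`. -/
theorem card_le_card_lim [Finite M] (hC : Curve Φ d) (T : AddSubgroup M) :
    Nat.card T ≤ Nat.card (lim hC T) := by
  refine le_of_forall_pow_le (d := d) Nat.card_pos fun n => ?_
  exact (pow_le_card_satLT hC T n).trans (card_satLT_le hC T (n + d))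

theorem lim_mono (hC : Curve Φ d) {T T' : AddSubgroup M} (h : T ≤ T') : lim hC T ≤ lim hC T' := by
  rintro z ⟨g, ⟨n, f, hf, hg⟩, rfl⟩
  exact ⟨g, ⟨n, f, fun k => h (hf k), hg⟩, rfl⟩

end Cfsg.Agent.Lib.PLocal.QO
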