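import Cfsg.Agent.Lib.PLocal.QO.Step

/-!
# Quadratic offenders normal in their normal closure
-/

set_option autoImplicit false

open scoped commutatorElement

namespace Cfsg.Agent.Lib.PLocal.QO

section Chain

variable {Q : Type*} [Group Q] [Finite Q]

/-- Conjugation into implies normalizing, in a finite group. -/
theorem mem_normalizer_of_conj_mem {A : Subgroup Q} {b : Q} (h : ∀ a ∈ A, b * a * b⁻¹ ∈ A) :
    b ∈ Subgroup.normalizer (A : Set Q) := by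
  have hpow : ∀ n : ℕ, ∀ a ∈ A, b ^ n * a * (b ^ n)⁻¹ ∈ A := by
    intro n
    induction n with
    | zero => simp
    | succ n ih =>
      intro a ha
      have := ih _ (h a ha)
      have e : b ^ (n + 1) * a * (b ^ (n + 1))⁻¹ = b ^ n * (b * a * b⁻¹) * (b ^ n)⁻¹ := by
        rw [pow_succ]
        group
      rw [e]
      exact this
  rw [Subgroup.mem_normalizer_iff]
  intro a
  refine ⟨h a, fun ha => ?_⟩
  obtain ⟨n, hn, hbn⟩ := isOfFinOrder_iff_pow_eq_one.mp (isOfFinOrder_of_finite b)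
  have h1 := hpow (n - 1) _ ha
  have e2 : b ^ (n - 1) * b = 1 := by
    rw [← pow_succ, Nat.sub_add_cancel hn, hbn]
  have e3 : b ^ (n - 1) * (b * a * b⁻¹) * (b ^ (n - 1))⁻¹ =
      (b ^ (n - 1) * b) * a * (b ^ (n - 1) * b)⁻¹ := by group
  rw [e3, e2] at h1
  simpa using h1

theorem exists_bad_conj [Group.IsNilpotent Q] (A : Subgroup Q)
    (hbad : ∃ h : Q, ∃ a ∈ A, h * a * h⁻¹ ∉ Subgroup.normalizer (A : Set Q)) :
    ∃ h₀ : Q, ∃ a₀ ∈ A, h₀ * a₀ * h₀⁻¹ ∉ Subgroup.normalizer (A : Set Q) ∧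
      ∀ a₁ ∈ A, ∀ a ∈ A, (h₀ * a₁ * h₀⁻¹) * a * (h₀ * a₁ * h₀⁻¹)⁻¹ ∈ Subgroup.normalizer (A : Set Q) := by
  let T : Set (Subgroup Q) := {N | Subgroup.normalizer (A : Set Q) ≤ N ∧
    ∀ h ∈ N, ∀ a ∈ A, h * a * h⁻¹ ∈ Subgroup.normalizer (A : Set Q)}
  have hle : A ≤ Subgroup.normalizer (A : Set Q) := Subgroup.le_normalizer
  have hT0 : Subgroup.normalizer (A : Set Q) ∈ T := by
    refine ⟨le_rfl, fun h hh a ha => hle ?_⟩
    exact (Subgroup.mem_normalizer_iff.mp hh a).mp ha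
  obtain ⟨N, hN⟩ := (Set.toFinite T).exists_maximal ⟨_, hT0⟩
  by_cases hNt : N = ⊤
  · exfalso
    obtain ⟨h, a, ha, hh⟩ := hbad
    exact hh (hN.prop.2 h (by rw [hNt]; trivial) a ha)
  have hlt : N < Subgroup.normalizer (N : Set Q) :=
    Group.normalizerCondition_of_isNilpotent N (lt_top_iff_ne_top.mpr hNt)
  have hnot : Subgroup.normalizer (N : Set Q) ∉ T := by
    intro hmem
    exact absurd (hN.le_of_ge hmem hlt.le) (not_le_of_gt hlt)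
  have hex : ∃ h₀ ∈ Subgroup.normalizer (N : Set Q), ∃ a₀ ∈ A,
      h₀ * a₀ * h₀⁻¹ ∉ Subgroup.normalizer (A : Set Q) := by
    by_contra hcon
    push Not at hcon
    exact hnot ⟨hN.prop.1.trans hlt.le, hcon⟩
  obtain ⟨h₀, hh₀, a₀, ha₀, hbad₀⟩ := hex
  refine ⟨h₀, a₀, ha₀, hbad₀, fun a₁ ha₁ a ha => ?_⟩
  exact hN.prop.2 _ ((Subgroup.mem_normalizer_iff.mp hh₀ a₁).mp (hN.prop.1 (hle ha₁))) a ha

end Chain

section Core

variable {Γ : Type*} [Group Γ] {p : ℕ} [Fact p.Prime]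
  {W : Type*} [AddCommGroup W] [Module (ZMod p) W]

variable {ρ : Γ →* Module.End (ZMod p) W}

/-- The subgroup of `Γ` attached to a square-zero subgroup of endomorphisms. -/
def grp (ρ : Γ →* Module.End (ZMod p) W) (𝔟 : AddSubgroup (Module.End (ZMod p) W))
    (hz : ∀ x ∈ 𝔟, ∀ x' ∈ 𝔟, x * x' = 0) : Subgroup Γ where
  carrier := {g | ρ g - 1 ∈ 𝔟}
  mul_mem' := by
    intro g h hg hh
    have h1 := hz _ hg _ hh
    have e : ρ (g * h) - 1 = (ρ g - 1) * (ρ h - 1) + (ρ g - 1) + (ρ h - 1) := by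
      rw [map_mul]
      noncomm_ring
    show ρ (g * h) - 1 ∈ 𝔟
    rw [e, h1, zero_add]
    exact 𝔟.add_mem hg hh
  one_mem' := by
    show ρ 1 - 1 ∈ 𝔟
    rw [map_one, sub_self]
    exact 𝔟.zero_mem
  inv_mem' := by
    intro g hg
    have h1 := hz _ hg _ hg
    have e : ρ g⁻¹ = 1 - (ρ g - 1) := by
      refine rho_inv_eq ?_
      have e2 : ρ g * (1 - (ρ g - 1)) = 1 - (ρ g - 1) * (ρ g - 1) := by noncomm_ring
      rw [e2, h1, sub_zero]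
    show ρ g⁻¹ - 1 ∈ 𝔟
    rw [e]
    have e3 : 1 - (ρ g - 1) - 1 = -(ρ g - 1) := by abel
    rw [e3]
    exact 𝔟.neg_mem hg

theorem mem_grp {𝔟 : AddSubgroup (Module.End (ZMod p) W)} {hz : ∀ x ∈ 𝔟, ∀ x' ∈ 𝔟, x * x' = 0}
    {g : Γ} : g ∈ grp ρ 𝔟 hz ↔ ρ g - 1 ∈ 𝔟 := Iff.rfl

theorem two_add_inv (hp : p ≠ 2) : ((2 : ZMod p)⁻¹) + ((2 : ZMod p)⁻¹) = 1 := by
  have h2 : (2 : ZMod p) ≠ 0 := by
    intro h
    have h3 : ((2 : ℕ) : ZMod p) = 0 := by exact_mod_cast h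
    rw [ZMod.natCast_eq_zero_iff] at h3
    exact hp ((Nat.prime_dvd_prime_iff_eq (Fact.out) Nat.prime_two).mp h3)
  rw [← two_mul, mul_inv_cancel₀ h2]

variable [Finite Γ] [Finite W]

/-- Maximal potential implies the conclusion. -/
theorem conj_mem_normalizer_of_max [Group.IsNilpotent Γ] (hp : p ≠ 2) {𝔞 : AddSubgroup (Module.End (ZMod p) W)}
    (hG : Good ρ 𝔞) {c : ℕ} (hc : gam Γ c = ⊥)
    (hmax : ∀ 𝔟, Good ρ 𝔟 → pot ρ c 𝔟 ≤ pot ρ c 𝔞) (h : Γ) {a : Γ}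
    (ha : a ∈ grp ρ 𝔞 hG.zero) :
    h * a * h⁻¹ ∈ Subgroup.normalizer (grp ρ 𝔞 hG.zero : Set Γ) := by
  by_contra hcon
  obtain ⟨h₀, a₀, ha₀, hb, hall⟩ := exists_bad_conj (grp ρ 𝔞 hG.zero) ⟨h, a, ha, hcon⟩
  set b := h₀ * a₀ * h₀⁻¹ with hbdef
  set y := ρ b - 1 with hydef
  have hinv0 : ρ h₀ * ρ h₀⁻¹ = 1 := by rw [← map_mul, mul_inv_cancel, map_one]
  have hinv1 : ρ h₀⁻¹ * ρ h₀ = 1 := by rw [← map_mul, inv_mul_cancel, map_one]
  have hy0 : y = ρ h₀ * (ρ a₀ - 1) * ρ h₀⁻¹ := by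
    rw [hydef, hbdef, map_mul, map_mul, mul_sub, sub_mul, mul_one, hinv0]
  have hy : y * y = 0 := by
    have h1 := hG.zero _ ha₀ _ ha₀
    rw [hy0]
    calc ρ h₀ * (ρ a₀ - 1) * ρ h₀⁻¹ * (ρ h₀ * (ρ a₀ - 1) * ρ h₀⁻¹)
        = ρ h₀ * (ρ a₀ - 1) * (ρ h₀⁻¹ * ρ h₀) * (ρ a₀ - 1) * ρ h₀⁻¹ := by noncomm_ring
      _ = ρ h₀ * ((ρ a₀ - 1) * (ρ a₀ - 1)) * ρ h₀⁻¹ := by rw [hinv1]; noncomm_ring
      _ = 0 := by rw [h1]; simp
  have hb1 : ρ b = 1 + y := by rw [hydef]; abel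
  have hpow : ∀ t : ZMod p, ρ (b ^ t.val) = uu y t := by
    intro t
    rw [map_pow, hb1, one_add_pow hy, uu, ← Nat.cast_smul_eq_nsmul (ZMod p), ZMod.natCast_zmod_val]
  have hpowinv : ∀ t : ZMod p, ρ (b ^ t.val)⁻¹ = uu y (-t) := fun t =>
    rho_inv_eq (by rw [hpow, uu_mul_neg hy])
  have hconj : ∀ (t : ZMod p) (x : Module.End (ZMod p) W) (g : Γ), ρ g = 1 + x →
      ρ (b ^ t.val * g * (b ^ t.val)⁻¹) = 1 + cj y t x := by
    intro t x g hg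
    rw [map_mul, map_mul, hpow, hpowinv, hg, ← cj_one_add hy]
    rfl
  have hD : Dat ρ 𝔞 b y (2 : ZMod p)⁻¹ := by
    refine ⟨two_add_inv hp, hb1, hy, hG.zero, hG.mem, ?_⟩
    intro t x' hx' x hx
    obtain ⟨a', ha'⟩ := hG.mem x' hx'
    obtain ⟨a'', ha''⟩ := hG.mem x hx
    have ma' : a' ∈ grp ρ 𝔞 hG.zero := by
      show ρ a' - 1 ∈ 𝔞
      rw [ha']
      simpa using hx'
    have ma'' : a'' ∈ grp ρ 𝔞 hG.zero := by
      show ρ a'' - 1 ∈ 𝔞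
      rw [ha'']
      simpa using hx
    -- the conjugate of `a'`
    set n := b ^ t.val * a' * (b ^ t.val)⁻¹ with hn
    have hρn : ρ n = 1 + cj y t x' := hconj t x' a' ha'
    have hnn : n * a'' * n⁻¹ ∈ grp ρ 𝔞 hG.zero := by
      have hnorm : n ∈ Subgroup.normalizer (grp ρ 𝔞 hG.zero : Set Γ) := by
        have e : n = (h₀ * a₀ ^ t.val * h₀⁻¹) * a' * (h₀ * a₀ ^ t.val * h₀⁻¹)⁻¹ := by
          have e1 : b ^ t.val = h₀ * a₀ ^ t.val * h₀⁻¹ := by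
            rw [hbdef, conj_pow]
          rw [hn, e1]
        rw [e]
        exact hall _ (Subgroup.pow_mem _ ha₀ _) _ ma'
      exact (Subgroup.mem_normalizer_iff.mp hnorm a'').mp ma''
    have hsq : cj y t x' * cj y t x' = 0 := by
      rw [← cj_mul hy, hG.zero x' hx' x' hx']
      exact cj_zero_right t
    have hninv : ρ n⁻¹ = 1 - cj y t x' := by
      refine rho_inv_eq ?_
      rw [hρn]
      have e2 : (1 + cj y t x') * (1 - cj y t x') = 1 - cj y t x' * cj y t x' := by noncomm_ring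
      rw [e2, hsq, sub_zero]
    have h3 : ρ (n * a'' * n⁻¹) - 1 ∈ 𝔞 := hnn
    rw [map_mul, map_mul, hρn, ha'', hninv] at h3
    have e4 : (1 + cj y t x') * (1 + x) * (1 - cj y t x') - 1 =
        (1 + cj y t x') * x * (1 - cj y t x') := by
      have e2 : (1 + cj y t x') * (1 - cj y t x') = 1 - cj y t x' * cj y t x' := by noncomm_ring
      have e5 : (1 + cj y t x') * (1 + x) * (1 - cj y t x') =
          (1 + cj y t x') * (1 - cj y t x') + (1 + cj y t x') * x * (1 - cj y t x') := by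
        noncomm_ring
      rw [e5, e2, hsq]
      abel
    rwa [e4] at h3
  have hnn : ∃ x ∈ 𝔞, cj y (1 : ZMod p) x ∉ 𝔞 := by
    by_contra hcon2
    push Not at hcon2
    apply hb
    refine mem_normalizer_of_conj_mem ?_
    intro a₂ ha₂
    have h1 : ρ a₂ = 1 + (ρ a₂ - 1) := by abel
    have h2 := hconj (1 : ZMod p) _ a₂ h1
    have h3 : (1 : ZMod p).val = 1 := by
      rw [ZMod.val_one_eq_one_mod, Nat.mod_eq_of_lt (Fact.out : p.Prime).one_lt]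
    rw [h3, pow_one] at h2
    show ρ (b * a₂ * b⁻¹) - 1 ∈ 𝔞
    rw [h2]
    simpa using hcon2 _ ha₂
  obtain ⟨𝔟, hgood, hlt⟩ := exists_pot_lt hD hG hc hnn
  exact absurd (hmax 𝔟 hgood) (not_le_of_gt hlt)

/-- The main theorem on the level of `Γ`. -/
theorem exists_good_normal [Group.IsNilpotent Γ] (hp : p ≠ 2)
    (hex : ∃ 𝔞, Good ρ 𝔞) :
    ∃ (𝔞 : AddSubgroup (Module.End (ZMod p) W)) (hG : Good ρ 𝔞), ∀ h : Γ, ∀ a ∈ grp ρ 𝔞 hG.zero,
      h * a * h⁻¹ ∈ Subgroup.normalizer (grp ρ 𝔞 hG.zero : Set Γ) := by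
  obtain ⟨c, hc⟩ := Subgroup.nilpotent_iff_lowerCentralSeries.mp (inferInstance : Group.IsNilpotent Γ)
  have hfin := finite_end (p := p) (W := W)
  have hfin2 : Finite (AddSubgroup (Module.End (ZMod p) W)) :=
    Finite.of_injective (fun S : AddSubgroup (Module.End (ZMod p) W) =>
      (S : Set (Module.End (ZMod p) W))) SetLike.coe_injective
  obtain ⟨𝔞, h𝔞, hmax⟩ := Set.exists_max_image {𝔟 | Good ρ 𝔟} (pot ρ c) (Set.toFinite _) hex
  exact ⟨𝔞, h𝔞, fun h a ha =>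
    conj_mem_normalizer_of_max hp h𝔞 hc (fun 𝔟 h𝔟 => hmax 𝔟 h𝔟) h ha⟩

end Core

end Cfsg.Agent.Lib.PLocal.QO
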