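import Cfsg.Agent.Lib.PLocal.QO.ClassTwo
import Cfsg.Agent.Lib.PLocal.QO.Curve

/-!
# Mutually normalizing conjugates of a square-zero subgroup
-/

set_option autoImplicit false

open scoped commutatorElement

namespace Cfsg.Agent.Lib.PLocal.QO

section Conj

variable {M : Type*} [Ring M] {p : ℕ} [Fact p.Prime] [Algebra (ZMod p) M]

/-- `1 + t y`. -/
def uu (y : M) (t : ZMod p) : M := 1 + t • y

/-- Conjugation by `1 + t y`. -/
def cj (y : M) (t : ZMod p) (z : M) : M := uu y t * z * uu y (-t)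

variable {y : M} (hy : y * y = 0)

include hy

theorem uu_mul (s t : ZMod p) : uu y s * uu y t = uu y (s + t) := by
  unfold uu
  rw [mul_aux, hy, add_smul]
  simp only [one_mul, mul_one, smul_zero, add_zero]
  abel

omit hy in
theorem uu_zero : uu y (0 : ZMod p) = 1 := by simp [uu]

theorem uu_mul_neg (t : ZMod p) : uu y t * uu y (-t) = 1 := by
  rw [uu_mul hy, add_neg_cancel, uu_zero]

theorem uu_neg_mul (t : ZMod p) : uu y (-t) * uu y t = 1 := by
  rw [uu_mul hy, neg_add_cancel, uu_zero]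

theorem cj_mul (t : ZMod p) (a b : M) : cj y t (a * b) = cj y t a * cj y t b := by
  unfold cj
  calc uu y t * (a * b) * uu y (-t) = uu y t * a * (uu y (-t) * uu y t) * b * uu y (-t) := by
        rw [uu_neg_mul hy]; noncomm_ring
    _ = _ := by noncomm_ring

omit hy in
theorem cj_add (t : ZMod p) (a b : M) : cj y t (a + b) = cj y t a + cj y t b := by
  unfold cj
  rw [mul_add, add_mul]

omit hy in
theorem cj_sub (t : ZMod p) (a b : M) : cj y t (a - b) = cj y t a - cj y t b := by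
  unfold cj
  rw [mul_sub, sub_mul]

theorem cj_cj (s t : ZMod p) (z : M) : cj y s (cj y t z) = cj y (s + t) z := by
  unfold cj
  rw [← uu_mul hy, neg_add, add_comm (-s), ← uu_mul hy]
  noncomm_ring

omit hy in
theorem cj_zero (z : M) : cj y (0 : ZMod p) z = z := by
  unfold cj
  rw [neg_zero, uu_zero]
  noncomm_ring

theorem cj_one_add (t : ZMod p) (x : M) : cj y t (1 + x) = 1 + cj y t x := by
  unfold cj
  rw [mul_add, add_mul, mul_one, uu_mul_neg hy]

omit hy in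
theorem cj_smul (t c : ZMod p) (x : M) : cj y t (c • x) = c • cj y t x := by
  unfold cj
  rw [mul_smul_comm, smul_mul_assoc]

omit hy in
theorem cj_eq (t : ZMod p) (z : M) : cj y t z = z + t • dd y z + (t * t) • ee y z := by
  unfold cj uu dd ee
  have e1 : (1 + t • y) * z = z + t • (y * z) := by
    rw [add_mul, one_mul, smul_mul_assoc]
  rw [e1, mul_aux]
  simp only [mul_one, smul_sub, smul_neg, neg_smul, smul_smul]
  abel

theorem cj_Ex (r : ZMod p) (t : ZMod p) (z : M) :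
    Ex r (cj y t z) = uu y t * Ex r z * uu y (-t) := by
  unfold Ex
  rw [← cj_mul hy]
  unfold cj
  rw [mul_add, mul_add, add_mul, add_mul, mul_one, uu_mul_neg hy, mul_smul_comm, smul_mul_assoc]

end Conj

section Grp

variable {Γ : Type*} [Group Γ] {M : Type*} [Ring M] {p : ℕ} [Fact p.Prime] [Algebra (ZMod p) M]
  (ρ : Γ →* M)

/-- `z` is the image of an element of `S`. -/
def In (S : Subgroup Γ) (z : M) : Prop := ∃ g ∈ S, ρ g = z

variable {ρ}

theorem In.mono {S T : Subgroup Γ} (h : S ≤ T) {z : M} (hz : In ρ S z) : In ρ T z := by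
  obtain ⟨g, hg, rfl⟩ := hz
  exact ⟨g, h hg, rfl⟩

theorem In.one (S : Subgroup Γ) : In ρ S (1 : M) := ⟨1, S.one_mem, map_one ρ⟩

theorem In.mul {S : Subgroup Γ} {a b : M} (ha : In ρ S a) (hb : In ρ S b) : In ρ S (a * b) := by
  obtain ⟨g, hg, rfl⟩ := ha
  obtain ⟨h, hh, rfl⟩ := hb
  exact ⟨g * h, S.mul_mem hg hh, map_mul ρ g h⟩

theorem rho_inv_eq {g : Γ} {a : M} (h : ρ g * a = 1) : ρ g⁻¹ = a := by
  have h1 : ρ g⁻¹ * ρ g = 1 := by rw [← map_mul, inv_mul_cancel, map_one]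
  calc ρ g⁻¹ = ρ g⁻¹ * (ρ g * a) := by rw [h, mul_one]
    _ = a := by rw [← mul_assoc, h1, one_mul]

theorem In.inv {S : Subgroup Γ} {a b : M} (ha : In ρ S a) (h : a * b = 1) : In ρ S b := by
  obtain ⟨g, hg, rfl⟩ := ha
  exact ⟨g⁻¹, S.inv_mem hg, rho_inv_eq h⟩

theorem one_add_pow {τ : M} (h : τ * τ = 0) (n : ℕ) : (1 + τ) ^ n = 1 + n • τ := by
  induction n with
  | zero => simp
  | succ n ih =>
    rw [pow_succ, ih, succ_nsmul]
    simp only [add_mul, mul_add, one_mul, mul_one, smul_mul_assoc, h, smul_zero, add_zero]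
    abel

theorem In.pow {S : Subgroup Γ} {a : M} (ha : In ρ S a) (n : ℕ) : In ρ S (a ^ n) := by
  obtain ⟨g, hg, rfl⟩ := ha
  exact ⟨g ^ n, S.pow_mem hg n, map_pow ρ g n⟩

theorem In.smul {S : Subgroup Γ} {τ : M} (h : τ * τ = 0) (ha : In ρ S (1 + τ)) (c : ZMod p) :
    In ρ S (1 + c • τ) := by
  have h1 : c • τ = c.val • τ := by
    rw [← Nat.cast_smul_eq_nsmul (ZMod p), ZMod.natCast_zmod_val]
  rw [h1, ← one_add_pow h]
  exact ha.pow _

variable {L : AddSubgroup M} (hL : Trip L) {r : ZMod p} (hr : r + r = 1)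

include hL hr in
theorem In.Ex_neg {S : Subgroup Γ} {z : M} (hz : z ∈ L) (h : In ρ S (Ex r z)) :
    In ρ S (Ex r (-z)) :=
  h.inv (Ex_mul_neg hL hr hz)

include hL hr in
theorem In.comm {S T : Subgroup Γ} {z w : M} (hz : z ∈ L) (hw : w ∈ L) (h1 : In ρ S (Ex r z))
    (h2 : In ρ T (Ex r w)) : In ρ ⁅S, T⁆ (1 + (z * w - w * z)) := by
  obtain ⟨g, hg, hgz⟩ := h1
  obtain ⟨h, hh, hhw⟩ := h2
  refine ⟨⁅g⁻¹, h⁻¹⁆, Subgroup.commutator_mem_commutator (S.inv_mem hg) (T.inv_mem hh), ?_⟩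
  have e1 : ρ g⁻¹ = Ex r (-z) := rho_inv_eq (by rw [hgz]; exact Ex_mul_neg hL hr hz)
  have e2 : ρ h⁻¹ = Ex r (-w) := rho_inv_eq (by rw [hhw]; exact Ex_mul_neg hL hr hw)
  rw [commutatorElement_def, inv_inv, inv_inv, map_mul, map_mul, map_mul, e1, e2, hgz, hhw,
    ← Ex_comm hL hr hz hw]
  noncomm_ring

theorem commutator_self_le' (S : Subgroup Γ) : ⁅S, S⁆ ≤ S := by
  rw [Subgroup.commutator_le]
  intro a ha b hb
  rw [commutatorElement_def]
  exact S.mul_mem (S.mul_mem (S.mul_mem ha hb) (S.inv_mem ha)) (S.inv_mem hb)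

variable (ρ)

/-- The part of `L` whose exponential lies in `S`. -/
def FF (S : Subgroup Γ) : AddSubgroup M where
  carrier := {z | z ∈ L ∧ In ρ S (Ex r z)}
  add_mem' := by
    rintro z w ⟨hz, hz'⟩ ⟨hw, hw'⟩
    refine ⟨L.add_mem hz hw, ?_⟩
    rw [Ex_add hL hr hz hw]
    exact (hz'.mul hw').mul (In.smul (hL.br_sq hz hw)
      ((In.comm hL hr hz hw hz' hw').mono (commutator_self_le' S)) (-r))
  zero_mem' := ⟨L.zero_mem, by rw [Ex_zero]; exact In.one S⟩
  neg_mem' := by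
    rintro z ⟨hz, hz'⟩
    exact ⟨L.neg_mem hz, hz'.Ex_neg hL hr hz⟩

variable {ρ}

theorem mem_FF {S : Subgroup Γ} {z : M} :
    z ∈ FF ρ hL hr S ↔ z ∈ L ∧ In ρ S (Ex r z) := Iff.rfl

theorem FF_mono {S T : Subgroup Γ} (h : S ≤ T) : FF ρ hL hr S ≤ FF ρ hL hr T :=
  fun _ hz => ⟨hz.1, hz.2.mono h⟩

theorem FF_comm {S T : Subgroup Γ} {z w : M} (hz : z ∈ FF ρ hL hr S) (hw : w ∈ FF ρ hL hr T) :
    z * w - w * z ∈ FF ρ hL hr ⁅S, T⁆ := by
  refine ⟨hL.lie z hz.1 w hw.1, ?_⟩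
  rw [Ex_of_sq r (hL.br_sq hz.1 hw.1)]
  exact In.comm hL hr hz.1 hw.1 hz.2 hw.2

end Grp

end Cfsg.Agent.Lib.PLocal.QO
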