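import Cfsg.Agent.Lib.PLocal.QO.Strict

/-!
# The potential strictly grows along the limit
-/

set_option autoImplicit false

open scoped commutatorElement

namespace Cfsg.Agent.Lib.PLocal.QO

variable {Γ : Type*} [Group Γ] {p : ℕ} [Fact p.Prime]
  {W : Type*} [AddCommGroup W] [Module (ZMod p) W]

/-- Common kernel of a subgroup of endomorphisms. -/
def kerA (𝔟 : AddSubgroup (Module.End (ZMod p) W)) : AddSubgroup W where
  carrier := {w | ∀ x ∈ 𝔟, x w = 0}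
  add_mem' := by
    intro a c ha hc x hx
    rw [map_add, ha x hx, hc x hx, add_zero]
  zero_mem' := fun x _ => map_zero x
  neg_mem' := by
    intro a ha x hx
    rw [map_neg, ha x hx, neg_zero]

theorem mem_kerA {𝔟 : AddSubgroup (Module.End (ZMod p) W)} {w : W} :
    w ∈ kerA 𝔟 ↔ ∀ x ∈ 𝔟, x w = 0 := Iff.rfl

/-- Square-zero offenders inside the image of `ρ`. -/
structure Good (ρ : Γ →* Module.End (ZMod p) W) (𝔟 : AddSubgroup (Module.End (ZMod p) W)) :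
    Prop where
  ne : 𝔟 ≠ ⊥
  zero : ∀ x ∈ 𝔟, ∀ x' ∈ 𝔟, x * x' = 0
  mem : ∀ x ∈ 𝔟, ∃ g, ρ g = 1 + x
  off : Nat.card W ≤ Nat.card 𝔟 * Nat.card (kerA 𝔟)

/-- The part of `𝔟` in the `i`th term of the lower central series. -/
noncomputable def ptc (ρ : Γ →* Module.End (ZMod p) W) (𝔟 : AddSubgroup (Module.End (ZMod p) W))
    (i : ℕ) : ℕ :=
  Nat.card {x : Module.End (ZMod p) W // x ∈ 𝔟 ∧ In ρ ((⊤ : Subgroup Γ).lowerCentralSeries i) (1 + x)}

/-- The potential. -/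
noncomputable def pot (ρ : Γ →* Module.End (ZMod p) W) (c : ℕ)
    (𝔟 : AddSubgroup (Module.End (ZMod p) W)) : ℕ :=
  ∑ i ∈ Finset.range (c + 1), ptc ρ 𝔟 i

theorem finite_end [Finite W] : Finite (Module.End (ZMod p) W) :=
  Finite.of_injective (fun f : Module.End (ZMod p) W => (f : W → W)) DFunLike.coe_injective

theorem exists_step {P : ℕ → Prop} {c : ℕ} (h0 : P 0) (hc : ¬ P c) :
    ∃ i, i < c ∧ P i ∧ ¬ P (i + 1) := by
  induction c with
  | zero => exact absurd h0 hc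
  | succ c ih =>
    by_cases h : P c
    · exact ⟨c, Nat.lt_succ_self c, h, hc⟩
    · obtain ⟨i, hi, h1, h2⟩ := ih h
      exact ⟨i, Nat.lt_succ_of_lt hi, h1, h2⟩

variable {ρ : Γ →* Module.End (ZMod p) W} {𝔞 : AddSubgroup (Module.End (ZMod p) W)} {b : Γ}
  {y : Module.End (ZMod p) W} {r : ZMod p}

/-- The rank one map `v ↦ φ v • w`. -/
def thetaHom (φ : Module.Dual (ZMod p) W) : W →+ Module.End (ZMod p) W where
  toFun w := φ.smulRight w
  map_zero' := by ext; simp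
  map_add' a c := by ext; simp

theorem thetaHom_apply (φ : Module.Dual (ZMod p) W) (w v : W) : thetaHom φ w v = φ v • w := rfl

theorem mul_thetaHom (φ : Module.Dual (ZMod p) W) (x : Module.End (ZMod p) W) (w : W) :
    x * thetaHom φ w = thetaHom φ (x w) := by
  ext v
  simp [thetaHom_apply, Module.End.mul_apply]

/-- The kernel can only grow in the limit. -/
theorem card_kerA_le [Finite W] (hy : y * y = 0) (h0 : 𝔞 ≠ ⊥) :
    Nat.card (kerA 𝔞) ≤ Nat.card (kerA (lim (curve2 y hy) 𝔞)) := by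
  have hfin := finite_end (p := p) (W := W)
  -- a nonzero functional
  obtain ⟨x₀, hx₀, hx₀0⟩ : ∃ x ∈ 𝔞, x ≠ 0 := by
    by_contra hcon
    push Not at hcon
    exact h0 ((AddSubgroup.eq_bot_iff_forall _).2 hcon)
  obtain ⟨v₀, hv₀⟩ : ∃ v, x₀ v ≠ 0 := by
    by_contra hcon
    push Not at hcon
    exact hx₀0 (LinearMap.ext hcon)
  obtain ⟨φ, u₀, hu₀⟩ : ∃ φ : Module.Dual (ZMod p) W, ∃ u, φ u ≠ 0 := by
    have hne : v₀ ≠ 0 := fun h => hv₀ (by rw [h, map_zero])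
    have := (Module.forall_dual_apply_eq_zero_iff (ZMod p) v₀).not.mpr hne
    push Not at this
    obtain ⟨φ, hφ⟩ := this
    exact ⟨φ, v₀, hφ⟩
  have hinj : Function.Injective (thetaHom φ) := by
    intro a c h
    have h1 := congrArg (fun f : Module.End (ZMod p) W => f u₀) h
    simp only [thetaHom_apply] at h1
    exact smul_right_injective _ hu₀ h1
  set T := (kerA 𝔞).map (thetaHom φ) with hT
  have hcard : Nat.card (kerA 𝔞) = Nat.card T :=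
    Nat.card_congr (AddSubgroup.equivMapOfInjective _ _ hinj).toEquiv
  have h1 : Nat.card T ≤ Nat.card (lim (curve1 y hy) T) := card_le_card_lim _ T
  have h2 : lim (curve1 y hy) T ≤ (kerA (lim (curve2 y hy) 𝔞)).map (thetaHom φ) := by
    intro m hm
    have hm1 : m ∈ (⊤ : AddSubgroup W).map (thetaHom φ) := by
      refine lim1_le hy (T := T) ?_ ?_ hm
      · exact AddSubgroup.map_mono le_top
      · rintro _ ⟨w, -, rfl⟩
        exact ⟨y w, trivial, (mul_thetaHom φ y w).symm⟩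
    obtain ⟨w, -, rfl⟩ := hm1
    refine ⟨w, ?_, rfl⟩
    intro z hz'
    have h3 : z * thetaHom φ w = 0 := by
      refine lim2_mul_lim1 hy (T₁ := 𝔞) (T₂ := T) ?_ hz' hm
      rintro x hx _ ⟨u, hu, rfl⟩
      rw [mul_thetaHom, hu x hx, map_zero]
    rw [mul_thetaHom] at h3
    exact hinj (by rw [h3, map_zero])
  have h4 : Nat.card (lim (curve1 y hy) T) ≤ Nat.card ((kerA (lim (curve2 y hy) 𝔞)).map (thetaHom φ)) :=
    Nat.card_le_card_of_injective _ (AddSubgroup.inclusion_injective h2)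
  have h5 : Nat.card (kerA (lim (curve2 y hy) 𝔞)) =
      Nat.card ((kerA (lim (curve2 y hy) 𝔞)).map (thetaHom φ)) :=
    Nat.card_congr (AddSubgroup.equivMapOfInjective _ _ hinj).toEquiv
  rw [hcard, h5]
  exact h1.trans h4

/-- Abbreviation for the series. -/
abbrev gam (Γ : Type*) [Group Γ] (i : ℕ) : Subgroup Γ := (⊤ : Subgroup Γ).lowerCentralSeries i

section Main

variable (D : Dat ρ 𝔞 b y r)

include D

theorem dd_le_LL {x : Module.End (ZMod p) W} (hx : x ∈ LL p 𝔞 y) : dd y x ∈ LL p 𝔞 y := by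
  rw [dd_eq_of D.hr]
  exact smul_mem_add _ _ (AddSubgroup.sub_mem _ (AddSubgroup.sub_mem _ (D.cj_mem _ hx) hx)
    (AddSubgroup.sub_mem _ (D.cj_mem _ hx) hx))

theorem ee_le_LL {x : Module.End (ZMod p) W} (hx : x ∈ LL p 𝔞 y) : ee y x ∈ LL p 𝔞 y := by
  rw [ee_eq_of D.hr]
  exact smul_mem_add _ _ (AddSubgroup.add_mem _ (AddSubgroup.sub_mem _ (D.cj_mem _ hx) hx)
    (AddSubgroup.sub_mem _ (D.cj_mem _ hx) hx))

theorem lim_le_LL : lim (curve2 y D.hy) 𝔞 ≤ LL p 𝔞 y :=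
  lim2_le D.hy D.le_LL (fun _ hx => dd_le_LL D (D.le_LL hx)) (fun _ hx => ee_le_LL D (D.le_LL hx))

theorem lim_sq {z : Module.End (ZMod p) W} (hz : z ∈ lim (curve2 y D.hy) 𝔞) : z * z = 0 :=
  lim2_mul_lim2 D.hy D.h0 hz hz

/-- `F i` -/
noncomputable abbrev Fi (i : ℕ) : AddSubgroup (Module.End (ZMod p) W) :=
  FF ρ D.trip D.hr (gam Γ i)

theorem Fi_anti (i : ℕ) : Fi D (i + 1) ≤ Fi D i :=
  FF_mono _ _ (Subgroup.lowerCentralSeries_antitone _ (Nat.le_succ i))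

theorem dd_Fi {i : ℕ} {z : Module.End (ZMod p) W} (hz : z ∈ Fi D i) : dd y z ∈ Fi D (i + 1) :=
  D.dd_mem_FF le_rfl hz

theorem ee_Fi {i : ℕ} {z : Module.End (ZMod p) W} (hz : z ∈ Fi D i) : ee y z ∈ Fi D (i + 1) :=
  D.ee_mem_FF le_rfl hz

theorem ptc_eq (𝔟 : AddSubgroup (Module.End (ZMod p) W)) (hL : 𝔟 ≤ LL p 𝔞 y)
    (hs : ∀ z ∈ 𝔟, z * z = 0) (i : ℕ) : ptc ρ 𝔟 i = Nat.card ↥(𝔟 ⊓ Fi D i) := by
  unfold ptc
  refine Nat.card_congr (Equiv.subtypeEquivRight ?_)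
  intro x
  constructor
  · rintro ⟨h1, h2⟩
    refine ⟨h1, hL h1, ?_⟩
    rw [Ex_of_sq r (hs x h1)]
    exact h2
  · rintro ⟨h1, -, h2⟩
    refine ⟨h1, ?_⟩
    rw [← Ex_of_sq r (hs x h1)]
    exact h2

theorem card_le_lim_Fi [Finite W] (i : ℕ) :
    Nat.card ↥(𝔞 ⊓ Fi D i) ≤ Nat.card ↥(lim (curve2 y D.hy) 𝔞 ⊓ Fi D i) := by
  have hfin := finite_end (p := p) (W := W)
  have h1 : Nat.card ↥(𝔞 ⊓ Fi D i) ≤ Nat.card (lim (curve2 y D.hy) (𝔞 ⊓ Fi D i)) :=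
    card_le_card_lim _ _
  refine h1.trans (Nat.card_le_card_of_injective _ (AddSubgroup.inclusion_injective ?_))
  refine le_inf (lim_mono _ inf_le_left) (lim2_le D.hy inf_le_right ?_ ?_)
  · exact fun _ hx => Fi_anti D i (dd_Fi D hx.2)
  · exact fun _ hx => Fi_anti D i (ee_Fi D hx.2)

theorem eq_zero_of_Fi_bot {z : Module.End (ZMod p) W} (hz : z ∈ FF ρ D.trip D.hr (⊥ : Subgroup Γ)) :
    z = 0 := by
  have hzL := hz.1
  obtain ⟨g, hg, hgz⟩ := hz.2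
  rw [Subgroup.mem_bot] at hg
  rw [hg, map_one] at hgz
  have h1 : z + r • (z * z) = 0 := by
    have h2 : 1 + (z + r • (z * z)) = 1 + 0 := by
      rw [add_zero, ← add_assoc]
      exact hgz.symm
    exact add_left_cancel h2
  have h3 : z = -(r • (z * z)) := eq_neg_of_add_eq_zero_left h1
  have h4 : z * z = 0 := by
    have h5 := congrArg (fun u => z * u) h3
    simp only [mul_neg, mul_smul_comm] at h5
    rw [D.trip.trip' hzL hzL hzL] at h5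
    simpa using h5
  rw [h4] at h3
  simpa using h3

/-- The step: a subgroup with larger potential. -/
theorem exists_pot_lt [Finite W] (hG : Good ρ 𝔞) {c : ℕ} (hc : gam Γ c = ⊥)
    (hnn : ∃ x ∈ 𝔞, cj y (1 : ZMod p) x ∉ 𝔞) :
    ∃ 𝔟, Good ρ 𝔟 ∧ pot ρ c 𝔞 < pot ρ c 𝔟 := by
  have hfin := finite_end (p := p) (W := W)
  have hs₀ : ∀ z ∈ 𝔞, z * z = 0 := fun z hz => D.h0 z hz z hz
  set 𝔩 := lim (curve2 y D.hy) 𝔞 with h𝔩
  have hs : ∀ z ∈ 𝔩, z * z = 0 := fun z hz => lim_sq D hz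
  have hL𝔩 : 𝔩 ≤ LL p 𝔞 y := lim_le_LL D
  have hcard : Nat.card 𝔞 ≤ Nat.card 𝔩 := card_le_card_lim _ _
  have hker : Nat.card (kerA 𝔞) ≤ Nat.card (kerA 𝔩) := card_kerA_le D.hy hG.ne
  have hgood : Good ρ 𝔩 := by
    refine ⟨?_, ?_, ?_, ?_⟩
    · intro hbot
      rw [hbot] at hcard
      have h1 : Nat.card 𝔞 ≤ 1 := by simpa using hcard
      have h2 : Subsingleton 𝔞 := (Finite.card_le_one_iff_subsingleton).1 h1
      exact hG.ne (AddSubgroup.eq_bot_of_subsingleton _)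
    · exact fun x hx x' hx' => lim2_mul_lim2 D.hy D.h0 hx hx'
    · intro x hx
      have h1 := D.LL_le_FF (hL𝔩 hx)
      obtain ⟨g, -, hg⟩ := h1.2
      rw [Ex_of_sq r (hs x hx)] at hg
      exact ⟨g, hg⟩
    · exact hG.off.trans (Nat.mul_le_mul hcard hker)
  refine ⟨𝔩, hgood, ?_⟩
  -- the choice of the index
  have hdd : ∃ x ∈ 𝔞, dd y x ∉ 𝔞 := by
    by_contra hcon
    push Not at hcon
    obtain ⟨x, hx, hx'⟩ := hnn
    apply hx'
    rw [cj_eq]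
    have h1 := hcon x hx
    have h2 : ee y x ∈ 𝔞 := by
      rw [Dat.ee_eq_dd_dd D.hr x D.hy]
      exact smul_mem_add _ _ (hcon _ h1)
    exact 𝔞.add_mem (𝔞.add_mem hx (smul_mem_add _ _ h1)) (smul_mem_add _ _ h2)
  let P : ℕ → Prop := fun i => ∃ x ∈ 𝔞 ⊓ Fi D i, dd y x ∉ 𝔞
  have hP0 : P 0 := by
    obtain ⟨x, hx, hx'⟩ := hdd
    exact ⟨x, ⟨hx, D.LL_le_FF (D.le_LL hx)⟩, hx'⟩
  have hPc : ¬ P c := by
    rintro ⟨x, ⟨-, hx2⟩, hx'⟩
    have hx3 : x ∈ FF ρ D.trip D.hr (⊥ : Subgroup Γ) := by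
      have : Fi D c = FF ρ D.trip D.hr (⊥ : Subgroup Γ) := by
        unfold Fi
        rw [hc]
      rwa [this] at hx2
    rw [eq_zero_of_Fi_bot D hx3, dd_zero] at hx'
    exact hx' 𝔞.zero_mem
  obtain ⟨i, hic, ⟨x, ⟨hx𝔞, hxF⟩, hx'⟩, hPs⟩ := exists_step hP0 hPc
  have hPs' : ∀ t ∈ 𝔞 ⊓ Fi D (i + 1), dd y t ∈ 𝔞 := by
    intro t ht
    by_contra hh
    exact hPs ⟨t, ht, hh⟩
  set C₀ := 𝔞 ⊓ Fi D (i + 1) with hC₀
  have hDC : ∀ t ∈ C₀, dd y t ∈ C₀ := fun t ht =>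
    ⟨hPs' t ht, Fi_anti D (i + 1) (dd_Fi D ht.2)⟩
  have hEC : ∀ t ∈ C₀, ee y t ∈ C₀ := by
    intro t ht
    rw [Dat.ee_eq_dd_dd D.hr t D.hy]
    exact smul_mem_add _ _ (hDC _ (hDC t ht))
  have hDx : dd y x ∉ C₀ := fun h => hx' h.1
  have hTle : addLine p C₀ x ≤ 𝔞 ⊓ Fi D i := by
    rintro _ ⟨e, t, ht, rfl⟩
    exact AddSubgroup.add_mem _ (smul_mem_add _ e ⟨hx𝔞, hxF⟩)
      ⟨ht.1, Fi_anti D i ht.2⟩
  have hlimT : lim (curve2 y D.hy) (addLine p C₀ x) ≤ 𝔩 ⊓ Fi D (i + 1) := by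
    refine le_inf (lim_mono _ (hTle.trans inf_le_left)) ?_
    exact lim_strict D.hy inf_le_right hDC hEC hDx (fun z hz => dd_Fi D (hTle hz).2)
      (fun z hz => ee_Fi D (hTle hz).2)
  have hle : C₀ ≤ addLine p C₀ x := by
    intro t ht
    exact ⟨0, t, ht, by simp⟩
  have hxT : x ∈ addLine p C₀ x := ⟨1, 0, C₀.zero_mem, by simp⟩
  have hxC : x ∉ C₀ := fun h => hDx (hDC x h)
  have hstrict : Nat.card C₀ < Nat.card ↥(𝔩 ⊓ Fi D (i + 1)) := by
    have h1 : Nat.card C₀ < Nat.card (addLine p C₀ x) := by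
      have hss : (C₀ : Set (Module.End (ZMod p) W)) ⊂ (addLine p C₀ x : Set _) :=
        ⟨hle, fun h => hxC (h hxT)⟩
      have h3 := Set.ncard_lt_ncard hss (Set.toFinite _)
      rw [← Nat.card_coe_set_eq, ← Nat.card_coe_set_eq] at h3
      exact h3
    have h4 : Nat.card (addLine p C₀ x) ≤ Nat.card (lim (curve2 y D.hy) (addLine p C₀ x)) :=
      card_le_card_lim _ _
    exact h1.trans_le (h4.trans
      (Nat.card_le_card_of_injective _ (AddSubgroup.inclusion_injective hlimT)))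
  unfold pot
  refine Finset.sum_lt_sum ?_ ?_
  · intro j _
    rw [ptc_eq D 𝔞 D.le_LL hs₀, ptc_eq D 𝔩 hL𝔩 hs]
    exact card_le_lim_Fi D j
  · refine ⟨i + 1, Finset.mem_range.mpr (by omega), ?_⟩
    rw [ptc_eq D 𝔞 D.le_LL hs₀, ptc_eq D 𝔩 hL𝔩 hs]
    exact hstrict

end Main

end Cfsg.Agent.Lib.PLocal.QO
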