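import Cfsg.Agent.Lib.PLocal.QO.Data

/-!
# The limit of a subgroup extended by one non-stable element
-/

set_option autoImplicit false

open Polynomial

namespace Cfsg.Agent.Lib.PLocal.QO

variable {M : Type*} [Ring M] {p : ℕ} [Fact p.Prime] [Algebra (ZMod p) M]

theorem dd_smul (y : M) (c : ZMod p) (z : M) : dd y (c • z) = c • dd y z := by
  simp only [dd, mul_smul_comm, smul_mul_assoc, smul_sub]

theorem ee_smul (y : M) (c : ZMod p) (z : M) : ee y (c • z) = c • ee y z := by
  simp only [ee, mul_smul_comm, smul_mul_assoc, smul_neg]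

variable (p) in
/-- `C₀ + F_p x`. -/
def addLine (C₀ : AddSubgroup M) (x : M) : AddSubgroup M where
  carrier := {z | ∃ c : ZMod p, ∃ t ∈ C₀, z = c • x + t}
  add_mem' := by
    rintro _ _ ⟨c, t, ht, rfl⟩ ⟨c', t', ht', rfl⟩
    refine ⟨c + c', t + t', C₀.add_mem ht ht', ?_⟩
    rw [add_smul]
    abel
  zero_mem' := ⟨0, 0, C₀.zero_mem, by simp⟩
  neg_mem' := by
    rintro _ ⟨c, t, ht, rfl⟩
    refine ⟨-c, -t, C₀.neg_mem ht, ?_⟩
    rw [neg_smul]
    abel

theorem unscale {C : AddSubgroup M} {c : ZMod p} (hc : c ≠ 0) {u t : M} (ht : t ∈ C)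
    (h : c • u + t ∈ C) : u ∈ C := by
  have h1 : c • u ∈ C := by
    have := C.sub_mem h ht
    simpa using this
  have h2 := smul_mem_add C c⁻¹ h1
  rwa [smul_smul, inv_mul_cancel₀ hc, one_smul] at h2

theorem lim_strict {y : M} (hy : y * y = 0) {C₀ F : AddSubgroup M} {x : M} (hC₀F : C₀ ≤ F)
    (hDC : ∀ t ∈ C₀, dd y t ∈ C₀) (hEC : ∀ t ∈ C₀, ee y t ∈ C₀) (hDx : dd y x ∉ C₀)
    (hDF : ∀ z ∈ addLine p C₀ x, dd y z ∈ F) (hEF : ∀ z ∈ addLine p C₀ x, ee y z ∈ F) :
    lim (curve2 y hy) (addLine p C₀ x) ≤ F := by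
  rintro _ ⟨g, ⟨n, f, hf, hg⟩, rfl⟩
  have hlow : ∀ k, k < n → (phi2 y f).coeff k = 0 := by
    intro k hk
    rw [← hg, coeff_X_pow_mul', if_neg (not_le.mpr hk)]
  have hg0 : g.coeff 0 = (phi2 y f).coeff n := by
    rw [← hg]
    simpa using (coeff_X_pow_mul g n 0).symm
  have claim : ∀ j, j + 2 ≤ n → f.coeff j ∈ C₀ := by
    intro j
    induction j using Nat.strong_induction_on with
    | _ j ih =>
      intro hj
      have hA : ∀ k, k ≤ j → (X * f).coeff k ∈ C₀ := by
        intro k hk
        cases k with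
        | zero => simp [C₀.zero_mem]
        | succ k =>
          rw [coeff_X_mul]
          exact ih k (by omega) (by omega)
      have hB : ∀ k, k ≤ j + 1 → (X * (X * f)).coeff k ∈ C₀ := by
        intro k hk
        cases k with
        | zero => simp [C₀.zero_mem]
        | succ k =>
          rw [coeff_X_mul]
          exact hA k (by omega)
      obtain ⟨c, t, ht, hft⟩ := hf j
      by_cases hc : c = 0
      · rw [hft, hc, zero_smul, zero_add]
        exact ht
      exfalso
      -- the equation at `j`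
      have e1 := hlow j (by omega)
      rw [coeff_phi2] at e1
      have h1 : ee y (f.coeff j) ∈ C₀ := by
        have : ee y (f.coeff j) = -((X * (X * f)).coeff j + dd y ((X * f).coeff j)) :=
          eq_neg_of_add_eq_zero_right e1
        rw [this]
        exact C₀.neg_mem (C₀.add_mem (hB j (by omega)) (hDC _ (hA j le_rfl)))
      rw [hft, ee_add, ee_smul] at h1
      have hex : ee y x ∈ C₀ := unscale hc (hEC t ht) h1
      -- the equation at `j + 1`
      have e2 := hlow (j + 1) (by omega)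
      rw [coeff_phi2, coeff_X_mul, coeff_X_mul] at e2
      obtain ⟨c', t', ht', hft'⟩ := hf (j + 1)
      have h2 : ee y (f.coeff (j + 1)) ∈ C₀ := by
        rw [hft', ee_add, ee_smul]
        exact C₀.add_mem (smul_mem_add C₀ c' hex) (hEC t' ht')
      have h3 : dd y (f.coeff j) ∈ C₀ := by
        have : dd y (f.coeff j) = -((X * f).coeff j + ee y (f.coeff (j + 1))) := by
          rw [eq_neg_iff_add_eq_zero, ← e2]
          abel
        rw [this]
        exact C₀.neg_mem (C₀.add_mem (hA j le_rfl) h2)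
      rw [hft, dd_add, dd_smul] at h3
      exact hDx (unscale hc (hDC t ht) h3)
  show g.coeff 0 ∈ F
  rw [hg0, coeff_phi2]
  refine F.add_mem (F.add_mem ?_ (hDF _ (coeff_X_mul_mem hf n))) (hEF _ (hf n))
  match n, claim with
  | 0, _ => simp [F.zero_mem]
  | 1, _ => simp [F.zero_mem, coeff_X_mul]
  | (m + 2), hcl =>
    rw [coeff_X_mul, coeff_X_mul]
    exact hC₀F (hcl m le_rfl)

end Cfsg.Agent.Lib.PLocal.QO
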